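import Cfsg.Agent.Lib.LocalCore
import Cfsg.Agent.Lib.CoprimeCommutator
import Cfsg.Agent.Lib.CoprimeStab
import Cfsg.Agent.Lib.NormalHall
import Cfsg.Agent.S3020
import Cfsg.Agent.S3021

/-!
# Extremely closed abelian `p`-subgroups: basic facts

`EC p H` : `H` is an extremely closed abelian `p`-subgroup of `G`. For every `g` the group `⟨H, gHg⁻¹⟩` is `H Q` with
`Q` a normal `p'`-subgroup, `Q ∩ N_G(H) = 1` (`exists_core`); consequences for subgroups and quotients.
-/

set_option autoImplicit false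
set_option linter.style.haveILetI false

namespace Cfsg.Agent.H266

open Subgroup Cfsg

theorem mem_sup_norm {G : Type*} [Group G] {A B : Subgroup G} (h : A ≤ normalizer (B : Set G))
    {x : G} (hx : x ∈ A ⊔ B) : ∃ a ∈ A, ∃ b ∈ B, a * b = x := by
  have h1 : x ∈ ((A ⊔ B : Subgroup G) : Set G) := hx
  rw [coe_mul_of_left_le_normalizer_right A B h] at h1
  exact Set.mem_mul.1 h1

/-- `H` is an extremely closed abelian `p`-subgroup. -/
structure EC (p : ℕ) {G : Type*} [Group G] (H : Subgroup G) : Prop where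
  pg : IsPGroup p H
  ab : ∀ a ∈ H, ∀ b ∈ H, a * b = b * a
  cl : IsExtremelyClosed H

namespace EC

variable {G : Type*} [Group G] {p : ℕ} {H : Subgroup G}

theorem of_comm (hp : IsPGroup p H) (hc : IsMulCommutative H) (hcl : IsExtremelyClosed H) : EC p H :=
  ⟨hp, fun a ha b hb => congrArg Subtype.val (hc.is_comm.comm (⟨a, ha⟩ : H) ⟨b, hb⟩), hcl⟩

theorem isMulCommutative (h : EC p H) : IsMulCommutative H :=
  ⟨⟨fun a b => Subtype.ext (h.ab a a.2 b b.2)⟩⟩

theorem le_centralizer_self (h : EC p H) : H ≤ centralizer (H : Set G) := fun a ha =>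
  mem_centralizer_iff.2 fun b hb => h.ab b hb a ha

/-- The structure of `⟨H, gHg⁻¹⟩`. -/
theorem exists_core [Finite G] [Fact p.Prime] (h : EC p H) (g : G) :
    ∃ Q : Subgroup G, (Nat.card Q).Coprime p ∧
      H ⊔ H.map (MulAut.conj g).toMonoidHom ≤ normalizer (Q : Set G) ∧
      H ⊔ Q = H ⊔ H.map (MulAut.conj g).toMonoidHom ∧ Q ⊓ normalizer (H : Set G) = ⊥ ∧
      ∃ k ∈ Q, k⁻¹ * g ∈ normalizer (H : Set G) := by
  set T : Subgroup G := H ⊔ H.map (MulAut.conj g).toMonoidHom with hT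
  obtain ⟨h1, h2⟩ := Cfsg.Agent.S3020.result H h.pg h.isMulCommutative h.cl g T hT
  set Q : Subgroup G := (pPrimeCore p T).map T.subtype with hQ
  have hQT : Q ≤ T := map_subtype_le _
  have hcop : (Nat.card Q).Coprime p := Lib.LocalCore.card_map_pPrimeCore_coprime p T
  have hTQ : T ≤ normalizer (Q : Set G) := Lib.LocalCore.le_normalizer_map_pPrimeCore p T
  have hQN : Q ⊓ normalizer (H : Set G) = ⊥ := by
    rw [eq_bot_iff, ← h2]
    rintro x ⟨hxQ, hxN⟩
    refine ⟨?_, hxQ⟩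
    rw [← h.cl g, ← hT]
    exact ⟨hQT hxQ, hxN⟩
  refine ⟨Q, hcop, hTQ, h1, hQN, ?_⟩
  -- work inside `T`
  have hHT : H ≤ T := le_sup_left
  have hN : (Q.subgroupOf T).Normal := normal_subgroupOf_of_le_normalizer hTQ
  have hQc : (Nat.card (Q.subgroupOf T)).Coprime p := by
    rw [Nat.card_congr (subgroupOfEquivOfLe hQT).toEquiv]; exact hcop
  -- `H` and `gHg⁻¹` are Sylow subgroups of `T`
  have hidx : (Q.subgroupOf T ⊔ H.subgroupOf T : Subgroup T) = ⊤ := by
    rw [sup_comm, ← subgroupOf_sup hHT hQT, h1, subgroupOf_self]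
  have hHpT : IsPGroup p (H.subgroupOf T) := h.pg.of_equiv (subgroupOfEquivOfLe hHT).symm
  -- a Sylow subgroup of T containing H is H
  have hsyl : ∀ P : Subgroup T, IsPGroup p P → H.subgroupOf T ≤ P → P = H.subgroupOf T := by
    intro P hP hle
    refine le_antisymm ?_ hle
    intro x hx
    have hxT : x ∈ (H.subgroupOf T ⊔ Q.subgroupOf T : Subgroup T) := by
      rw [sup_comm, hidx]; trivial
    obtain ⟨a, ha, q, hq, rfl⟩ := mem_sup_of_normal_right.1 hxT
    have hqP : q ∈ P := by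
      have := P.mul_mem (P.inv_mem (hle ha)) hx
      rwa [inv_mul_cancel_left] at this
    have hq1 : q = 1 := by
      have hd : (P ⊓ Q.subgroupOf T : Subgroup T) = ⊥ := by
        obtain ⟨n, hn⟩ := hP.exists_card_eq
        refine (disjoint_of_coprime_natCard ?_).eq_bot
        rw [hn]
        exact (hQc.pow_right n).symm
      have : q ∈ (P ⊓ Q.subgroupOf T : Subgroup T) := ⟨hqP, hq⟩
      rwa [hd, mem_bot] at this
    rw [hq1, mul_one]
    exact ha
  obtain ⟨P, hP⟩ := hHpT.exists_le_sylow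
  have hPH : (P : Subgroup T) = H.subgroupOf T := hsyl P P.isPGroup' hP
  -- the conjugate
  set H' : Subgroup G := H.map (MulAut.conj g).toMonoidHom with hH'
  have hH'T : H' ≤ T := le_sup_right
  have hH'p : IsPGroup p (H'.subgroupOf T) := by
    have : IsPGroup p H' := h.pg.map _
    exact this.of_equiv (subgroupOfEquivOfLe hH'T).symm
  obtain ⟨P', hP'⟩ := hH'p.exists_le_sylow
  obtain ⟨t, ht⟩ := MulAction.exists_smul_eq T P P'
  have hcard : Nat.card H' = Nat.card H :=
    (Nat.card_congr (H.equivMapOfInjective _ (MulAut.conj g).injective).toEquiv).symm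
  have hP'H' : (P' : Subgroup T) = H'.subgroupOf T := by
    refine (eq_of_le_of_card_ge hP' ?_).symm
    have e1 : Nat.card (P' : Subgroup T) = Nat.card (P : Subgroup T) :=
      P'.card_eq_multiplicity.trans P.card_eq_multiplicity.symm
    rw [Nat.card_congr (subgroupOfEquivOfLe hH'T).toEquiv, hcard, e1, hPH,
      Nat.card_congr (subgroupOfEquivOfLe hHT).toEquiv]
  -- write `t = k * a`
  have htT : t ∈ (Q.subgroupOf T ⊔ H.subgroupOf T : Subgroup T) := by rw [hidx]; trivial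
  obtain ⟨k, hk, a, ha, hka⟩ := mem_sup_of_normal_left.1 htT
  refine ⟨k, hk, ?_⟩
  have hkey : ∀ x ∈ H, g * x * g⁻¹ ∈ H.map (MulAut.conj (k : G)).toMonoidHom := by
    intro x hx
    have hx' : g * x * g⁻¹ ∈ H' := ⟨x, hx, by simp⟩
    have h3 : (⟨g * x * g⁻¹, hH'T hx'⟩ : T) ∈ (P' : Subgroup T) := by
      rw [hP'H']; exact hx'
    rw [← ht] at h3
    have h4 : t⁻¹ • (⟨g * x * g⁻¹, hH'T hx'⟩ : T) = t⁻¹ * ⟨g * x * g⁻¹, hH'T hx'⟩ := rfl
    have h5 : t⁻¹ * (⟨g * x * g⁻¹, hH'T hx'⟩ : T) * t ∈ (P : Subgroup T) := by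
      rw [Sylow.coe_subgroup_smul, Subgroup.mem_pointwise_smul_iff_inv_smul_mem] at h3
      simpa [MulAut.smul_def, MulAut.conj_apply, mul_assoc] using h3
    rw [hPH, mem_subgroupOf] at h5
    have h6 : (t : G) = k * a := by rw [← hka]; rfl
    rw [Subgroup.coe_mul, Subgroup.coe_mul, Subgroup.coe_inv, h6] at h5
    have h7 := H.mul_mem (H.mul_mem ha h5) (H.inv_mem ha)
    refine ⟨(a : G) * (((k : G) * a)⁻¹ * (g * x * g⁻¹) * ((k : G) * a)) * (a : G)⁻¹, h7, ?_⟩
    simp only [MulEquiv.toMonoidHom_eq_coe, MonoidHom.coe_coe, MulAut.conj_apply]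
    group
  refine mem_normalizer_fintype (S := (H : Set G)) ?_
  intro x hx
  obtain ⟨y, hy, hyx⟩ := hkey x hx
  have h8 : (k : G) * y * (k : G)⁻¹ = g * x * g⁻¹ := by simpa using hyx
  have : (k : G)⁻¹ * g * x * ((k : G)⁻¹ * g)⁻¹ = y := by
    calc (k : G)⁻¹ * g * x * ((k : G)⁻¹ * g)⁻¹ = (k : G)⁻¹ * (g * x * g⁻¹) * k := by group
      _ = y := by rw [← h8]; group
  rw [this]
  exact hy

/-- Inheritance by subgroups. -/
theorem subgroupOf (h : EC p H) {L : Subgroup G} (hHL : H ≤ L) : EC p (H.subgroupOf L) := by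
  refine ⟨h.pg.of_equiv (subgroupOfEquivOfLe hHL).symm, ?_, ?_⟩
  · intro a ha b hb
    exact Subtype.ext (h.ab a ha b hb)
  · intro g
    refine le_antisymm ?_ (le_inf le_sup_left le_normalizer)
    rintro x ⟨hx1, hx2⟩
    rw [mem_subgroupOf, ← h.cl (g : G)]
    constructor
    · have hle : (H.subgroupOf L ⊔ (H.subgroupOf L).map (MulAut.conj g).toMonoidHom).map L.subtype ≤
          H ⊔ H.map (MulAut.conj (g : G)).toMonoidHom := by
        rw [Subgroup.map_sup]
        refine sup_le_sup ?_ ?_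
        · rw [subgroupOf_map_subtype]; exact inf_le_left
        · rintro _ ⟨_, ⟨y, hy, rfl⟩, rfl⟩
          exact ⟨y, hy, by simp⟩
      exact hle ⟨x, hx1, rfl⟩
    · rw [← subgroupOf_normalizer_eq hHL] at hx2
      exact hx2

/-- Images in quotients. -/
theorem map_mk [Finite G] [Fact p.Prime] (h : EC p H) (N : Subgroup G) [N.Normal] :
    EC p (H.map (QuotientGroup.mk' N)) := by
  refine ⟨h.pg.map _, ?_, ?_⟩
  · rintro _ ⟨a, ha, rfl⟩ _ ⟨b, hb, rfl⟩
    rw [← map_mul, ← map_mul, h.ab a ha b hb]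
  · intro g'
    obtain ⟨g, rfl⟩ := QuotientGroup.mk'_surjective N g'
    set f := QuotientGroup.mk' N with hf
    obtain ⟨Q, hQ, hTQ, hHQ, hQN, -⟩ := h.exists_core g
    have hmap : (H.map f) ⊔ (H.map f).map (MulAut.conj (f g)).toMonoidHom =
        (H ⊔ H.map (MulAut.conj g).toMonoidHom).map f := by
      rw [Subgroup.map_sup, Subgroup.map_map, Subgroup.map_map]
      congr 2
    refine le_antisymm ?_ (le_inf le_sup_left le_normalizer)
    intro y hy
    obtain ⟨hy1, hy2⟩ := mem_inf.1 hy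
    rw [hmap, ← hHQ] at hy1
    have hHNQ : H ≤ normalizer (Q : Set G) := le_trans le_sup_left hTQ
    obtain ⟨_, ht, rfl⟩ := hy1
    obtain ⟨a, ha, q, hq, rfl⟩ := mem_sup_norm hHNQ ht
    rw [map_mul] at hy2 ⊢
    have hfa : f a ∈ H.map f := ⟨a, ha, rfl⟩
    refine mul_mem hfa ?_
    have hfq : f q ∈ normalizer ((H.map f : Subgroup (G ⧸ N)) : Set (G ⧸ N)) := by
      have := mul_mem (inv_mem (le_normalizer hfa)) hy2
      rwa [inv_mul_cancel_left] at this
    -- `f q` centralises `H`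
    have hdisj : H.map f ⊓ Q.map f = ⊥ := by
      obtain ⟨n, hn⟩ := (h.pg.map f).exists_card_eq
      refine (disjoint_of_coprime_natCard ?_).eq_bot
      rw [hn]
      refine Nat.Coprime.pow_left n (Nat.Coprime.symm ?_)
      exact Nat.Coprime.coprime_dvd_left (Subgroup.card_map_dvd Q f) hQ
    have hcent : ∀ b ∈ H, q⁻¹ * (b * q * b⁻¹) ∈ N ⊓ Q := by
      intro b hb
      have hbq : b * q * b⁻¹ ∈ Q := (mem_normalizer_iff.1 (hHNQ hb) q).1 hq
      refine mem_inf.2 ⟨?_, mul_mem (inv_mem hq) hbq⟩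
      rw [← QuotientGroup.eq_one_iff, ← QuotientGroup.mk'_apply]
      have h1 : f (q⁻¹ * (b * q * b⁻¹)) ∈ (H.map f ⊓ Q.map f : Subgroup (G ⧸ N)) := by
        refine mem_inf.2 ⟨?_, ⟨_, mul_mem (inv_mem hq) hbq, rfl⟩⟩
        have h2 : f q⁻¹ * f b * f q ∈ H.map f := by
          have h3 := (mem_normalizer_iff''.1 hfq (f b)).1 ⟨b, hb, rfl⟩
          simpa using h3
        have h4 : f (q⁻¹ * (b * q * b⁻¹)) = (f q⁻¹ * f b * f q) * f b⁻¹ := by
          simp only [map_mul, mul_assoc]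
        rw [h4]
        exact mul_mem h2 ⟨b⁻¹, inv_mem hb, rfl⟩
      rwa [hdisj, mem_bot] at h1
    have hHNQ' : H ≤ normalizer ((N ⊓ Q : Subgroup G) : Set G) := by
      intro b hb
      refine mem_normalizer_iff.2 fun y => ?_
      have h1 := mem_normalizer_iff.1 (hHNQ hb) y
      have h2 : y ∈ N ↔ b * y * b⁻¹ ∈ N := by
        constructor
        · intro hy; exact Normal.conj_mem inferInstance y hy b
        · intro hy
          have := Normal.conj_mem (inferInstance : N.Normal) _ hy b⁻¹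
          simpa [mul_assoc] using this
      exact ⟨fun hy => ⟨h2.1 hy.1, h1.1 hy.2⟩, fun hy => ⟨h2.2 hy.1, h1.2 hy.2⟩⟩
    have hpNQ : ¬ p ∣ Nat.card ↥(N ⊓ Q : Subgroup G) := by
      have h1 : (Nat.card ↥(N ⊓ Q : Subgroup G)).Coprime p :=
        Nat.Coprime.coprime_dvd_left (card_dvd_of_le inf_le_right) hQ
      intro hd
      have := Nat.Coprime.eq_one_of_dvd h1.symm hd
      exact (Fact.out : p.Prime).one_lt.ne' this
    obtain ⟨c, hc, hqc⟩ := Lib.CoprimeCommutator.exists_fixed_in_coset p H (N ⊓ Q) h.pg hHNQ' hpNQ q hcent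
    have hcQ : c ∈ Q := by
      have := mul_mem hq (mem_inf.1 hqc).2
      rwa [mul_inv_cancel_left] at this
    have hc1 : c = 1 := by
      have : c ∈ Q ⊓ normalizer (H : Set G) := ⟨hcQ, centralizer_le_normalizer _ hc⟩
      rwa [hQN, mem_bot] at this
    have hqN : q ∈ N := by
      have := (mem_inf.1 hqc).1
      rw [hc1, mul_one] at this
      simpa using inv_mem this
    have : f q = 1 := by rw [hf, QuotientGroup.mk'_apply, QuotientGroup.eq_one_iff]; exact hqN
    rw [this]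
    exact one_mem _

end EC

end Cfsg.Agent.H266
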