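import Cfsg.Agent.S1124
import Cfsg.Agent.Lib.NormalHall
import Cfsg.Agent.Lib.KleinGen

/-!
# Four-groups acting on groups of odd order: a product decomposition and a counting lemma
-/

set_option autoImplicit false
set_option linter.style.haveILetI false

namespace Cfsg.Agent.H266.Four

open Subgroup Cfsg

variable {G : Type*} [Group G]

/-- Product decomposition for a four-group acting on a group of odd order. -/
theorem exists_decomp [Finite G] {Q : Subgroup G} (hQ : Odd (Nat.card Q)) {a b : G}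
    (ha : orderOf a = 2) (hb : orderOf b = 2) (hab : a * b = b * a)
    (haQ : ∀ x ∈ Q, a * x * a⁻¹ ∈ Q) (hbQ : ∀ x ∈ Q, b * x * b⁻¹ ∈ Q) {k : G} (hk : k ∈ Q) :
    ∃ c ∈ Q ⊓ centralizer {a}, ∃ r ∈ Q ⊓ centralizer {b}, ∃ v ∈ Q ⊓ centralizer {a * b},
      k = c * (r * v * r) := by
  obtain ⟨⟨c, q⟩, ⟨hc, hq, hkc⟩, -⟩ := (S1124.result a ha Q hQ haQ).1 k hk
  simp only at hc hq hkc
  obtain ⟨hqQ, hqa⟩ := hq
  obtain ⟨⟨y, z⟩, ⟨hy, hz, hqyz⟩, -⟩ := (S1124.result b hb Q hQ hbQ).1 q hqQ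
  simp only at hy hz hqyz
  obtain ⟨hzQ, hzb⟩ := hz
  obtain ⟨hyQ, hyb⟩ := mem_inf.1 hy
  rw [mem_centralizer_singleton_iff] at hyb
  have hyb' : b * y * b⁻¹ = y := by rw [← hyb]; group
  obtain ⟨m, hm⟩ := hQ
  have hpow : ∀ x ∈ Q, x ^ (2 * m + 1) = 1 := by
    intro x hx
    have : (⟨x, hx⟩ : Q) ^ Nat.card Q = 1 := pow_card_eq_one'
    rw [hm] at this
    simpa using congrArg Subtype.val this
  have hroot : ∀ x ∈ Q, x = (x * x) ^ (m + 1) := by
    intro x hx
    have h1 := hpow x hx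
    calc x = x ^ (2 * m + 1) * x := by rw [h1]; group
      _ = (x * x) ^ (m + 1) := by rw [← pow_two, ← pow_mul, ← pow_succ]; congr 1
  have hsq : ∀ x ∈ Q, ∀ w ∈ Q, x * x = w * w → x = w := by
    intro x hx w hw h
    rw [hroot x hx, hroot w hw, h]
  -- conjugations
  set α : G ≃* G := MulAut.conj a with hα
  set β : G ≃* G := MulAut.conj b with hβ
  have hαx : ∀ x, α x = a * x * a⁻¹ := fun x => rfl
  have hβx : ∀ x, β x = b * x * b⁻¹ := fun x => rfl
  have hαβ : ∀ x, α (β x) = β (α x) := by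
    intro x
    rw [hαx, hβx, hβx, hαx]
    have h1 : a * (b * x * b⁻¹) * a⁻¹ = (a * b) * x * (a * b)⁻¹ := by group
    have h2 : b * (a * x * a⁻¹) * b⁻¹ = (b * a) * x * (b * a)⁻¹ := by group
    rw [h1, h2, hab]
  have e1 : α q = q⁻¹ := hqa
  have e2 : β y = y := hyb'
  have e3 : β z = z⁻¹ := hzb
  have e4 : β q = y * z⁻¹ := by rw [hqyz, map_mul, e2, e3]
  have e5 : z * z = (β q)⁻¹ * q := by rw [e4, hqyz]; group
  have e6 : α z * α z = (y * z⁻¹ * y⁻¹) * (y * z⁻¹ * y⁻¹) := by
    rw [← map_mul, e5, map_mul, map_inv, hαβ, e1, map_inv, e4, inv_inv, hqyz]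
    group
  have hαQ : ∀ x ∈ Q, α x ∈ Q := haQ
  have e7 : α z = y * z⁻¹ * y⁻¹ :=
    hsq _ (hαQ z hzQ) _ (mul_mem (mul_mem hyQ (inv_mem hzQ)) (inv_mem hyQ)) e6
  have e8 : α y = y⁻¹ := by
    have h1 : y = q * z⁻¹ := by rw [hqyz]; group
    have h2 : α y = α (q * z⁻¹) := congrArg α h1
    rw [h2, map_mul, e1, map_inv, e7, hqyz]
    group
  set r : G := y ^ (m + 1) with hr
  have hrr : r * r = y := by
    rw [hr, ← pow_add]
    have h1 : m + 1 + (m + 1) = (2 * m + 1) + 1 := by ring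
    rw [h1, pow_succ, hpow y hyQ, one_mul]
  have hrQ : r ∈ Q := pow_mem hyQ _
  have f1 : α r = r⁻¹ := by rw [hr, map_pow, e8, inv_pow]
  have f2 : β r = r := by rw [hr, map_pow, e2]
  set v : G := r * z * r⁻¹ with hv
  have hvQ : v ∈ Q := mul_mem (mul_mem hrQ hzQ) (inv_mem hrQ)
  have g1 : β v = r * z⁻¹ * r⁻¹ := by rw [hv, map_mul, map_mul, map_inv, f2, e3]
  have f3 : α (β v) = v := by
    rw [g1, map_mul, map_mul, map_inv, map_inv, f1, e7, hv, ← hrr]
    group
  refine ⟨c, hc, r, mem_inf.2 ⟨hrQ, ?_⟩, v, mem_inf.2 ⟨hvQ, ?_⟩, ?_⟩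
  · rw [mem_centralizer_singleton_iff]
    rw [hβx] at f2
    exact (mul_inv_eq_iff_eq_mul.1 f2).symm
  · rw [mem_centralizer_singleton_iff]
    rw [hαx, hβx] at f3
    have h0 : (a * b) * v * (a * b)⁻¹ = a * (b * v * b⁻¹) * a⁻¹ := by group
    have h1 : (a * b) * v * (a * b)⁻¹ = v := by rw [h0, f3]
    exact (mul_inv_eq_iff_eq_mul.1 h1).symm
  · rw [hkc, hqyz, hv, ← hrr]; group

theorem four_cases {P : Subgroup G} (h4 : Nat.card P = 4) {a x y : G} (ha : a ∈ P) (ha2 : a * a = 1)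
    (ha1 : a ≠ 1) (hx : x ∈ P) (hy : y ∈ P) (hx1 : x ≠ 1) (hxa : x ≠ a) (hy1 : y ≠ 1) (hya : y ≠ a) :
    y = x⁻¹ ∨ y = x⁻¹ * a := by
  have hz : ∀ w : P, w ∈ zpowers (⟨a, ha⟩ : P) ↔ (w : G) = 1 ∨ (w : G) = a := by
    intro w
    constructor
    · rintro ⟨n, rfl⟩
      have h2 : (⟨a, ha⟩ : P) ^ 2 = 1 := by rw [pow_two]; exact Subtype.ext ha2
      rcases Int.even_or_odd' n with ⟨k, rfl | rfl⟩
      · left
        have : (⟨a, ha⟩ : P) ^ (2 * k) = 1 := by
          rw [zpow_mul]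
          have : (⟨a, ha⟩ : P) ^ (2 : ℤ) = 1 := by exact_mod_cast h2
          rw [this, one_zpow]
        simp only [this, Subgroup.coe_one]
      · right
        have : (⟨a, ha⟩ : P) ^ (2 * k + 1) = ⟨a, ha⟩ := by
          rw [zpow_add, zpow_mul]
          have : (⟨a, ha⟩ : P) ^ (2 : ℤ) = 1 := by exact_mod_cast h2
          rw [this, one_zpow, one_mul, zpow_one]
        simp only [this]
    · rintro (h | h)
      · have : w = 1 := Subtype.ext h
        rw [this]; exact one_mem _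
      · have : w = ⟨a, ha⟩ := Subtype.ext h
        rw [this]; exact mem_zpowers _
  have ho : orderOf (⟨a, ha⟩ : P) = 2 := by
    refine orderOf_eq_prime ?_ ?_
    · rw [pow_two]; exact Subtype.ext ha2
    · intro h; exact ha1 (congrArg Subtype.val h)
  have hidx : (zpowers (⟨a, ha⟩ : P)).index = 2 := by
    have h1 := (zpowers (⟨a, ha⟩ : P)).card_mul_index
    rw [Nat.card_zpowers, ho, h4] at h1
    omega
  have h1 := (Subgroup.mul_mem_iff_of_index_two hidx (a := ⟨x, hx⟩) (b := ⟨y, hy⟩)).2 (by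
    rw [hz, hz]
    constructor
    · rintro (h | h)
      · exact absurd h hx1
      · exact absurd h hxa
    · rintro (h | h)
      · exact absurd h hy1
      · exact absurd h hya)
  rw [hz] at h1
  rcases h1 with h1 | h1
  · left
    exact eq_inv_of_mul_eq_one_right h1
  · right
    have h2 : x * y = a := h1
    rw [← h2]; group

theorem comm_of_sq {P : Subgroup G} (hsq : ∀ x ∈ P, x * x = 1) :
    ∀ x ∈ P, ∀ y ∈ P, x * y = y * x := by
  intro x hx y hy
  have h4 : x⁻¹ = x := inv_eq_of_mul_eq_one_left (hsq x hx)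
  have h5 : y⁻¹ = y := inv_eq_of_mul_eq_one_left (hsq y hy)
  have h6 : (x * y)⁻¹ = x * y := inv_eq_of_mul_eq_one_left (hsq (x * y) (mul_mem hx hy))
  rw [← h6, mul_inv_rev, h4, h5]

/-- A Klein four Sylow 2-subgroup: the centraliser of an involution of it has a normal 2-complement. -/
theorem exists_complement [Finite G] (S : Sylow 2 G) (h4 : Nat.card (S : Subgroup G) = 4)
    (hsq : ∀ x ∈ (S : Subgroup G), x * x = 1) {a : G} (haS : a ∈ (S : Subgroup G)) (ha1 : a ≠ 1) :
    ∃ K : Subgroup G, 4 * Nat.card K = Nat.card (centralizer ({a} : Set G)) ∧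
      ∀ x ∈ centralizer ({a} : Set G), Odd (orderOf x) → x ∈ K := by
  haveI : Fact (Nat.Prime 2) := ⟨Nat.prime_two⟩
  have hcomm := comm_of_sq hsq
  set C : Subgroup G := centralizer ({a} : Set G) with hC
  have hSC : (S : Subgroup G) ≤ C := fun x hx => mem_centralizer_singleton_iff.2 (hcomm x hx a haS)
  set P : Sylow 2 C := S.subtype hSC with hP
  have hPS : (P : Subgroup C) = (S : Subgroup G).subgroupOf C := rfl
  have hcardP : Nat.card (P : Subgroup C) = 4 := by
    rw [hPS, Nat.card_congr (subgroupOfEquivOfLe hSC).toEquiv, h4]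
  have hsqP : ∀ x ∈ (P : Subgroup C), x * x = 1 := fun x hx => Subtype.ext (hsq x hx)
  have hcommP := comm_of_sq hsqP
  set a' : C := ⟨a, hSC haS⟩ with ha'
  have ha'P : a' ∈ (P : Subgroup C) := haS
  have ha'1 : a' ≠ 1 := fun h => ha1 (congrArg Subtype.val h)
  have hNC : normalizer ((P : Subgroup C) : Set C) ≤ centralizer ((P : Subgroup C) : Set C) := by
    intro n hn
    refine mem_centralizer_iff.2 fun x hx => ?_
    by_contra hne
    have hna : n * a' * n⁻¹ = a' := by
      have h1 := mem_centralizer_singleton_iff.1 n.2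
      have h2 : n * a' = a' * n := Subtype.ext h1
      rw [h2]; group
    have hx1 : x ≠ 1 := by rintro rfl; exact hne (by simp)
    have hxa : x ≠ a' := by
      rintro rfl
      exact hne (mul_inv_eq_iff_eq_mul.1 hna).symm
    have hy : n * x * n⁻¹ ∈ (P : Subgroup C) := (mem_normalizer_iff.1 hn x).1 hx
    have hy1 : n * x * n⁻¹ ≠ 1 := by
      intro h; exact hx1 (by simpa using h)
    have hya : n * x * n⁻¹ ≠ a' := by
      intro h
      rw [← hna] at h
      exact hxa (by simpa using h)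
    have hxi : x⁻¹ = x := inv_eq_of_mul_eq_one_left (hsqP x hx)
    have hcase := four_cases hcardP ha'P (hsqP a' ha'P) ha'1 hx hy hx1 hxa hy1 hya
    rw [hxi] at hcase
    rcases hcase with h1 | h1
    · exact hne (mul_inv_eq_iff_eq_mul.1 h1).symm
    · -- `n` swaps `x` and `x a'`
      have hnn : Commute (n * n) x := by
        have h2 : n * n * x * (n * n)⁻¹ = x := by
          calc n * n * x * (n * n)⁻¹ = n * (n * x * n⁻¹) * n⁻¹ := by group
            _ = n * (x * a') * n⁻¹ := by rw [h1]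
            _ = (n * x * n⁻¹) * (n * a' * n⁻¹) := by group
            _ = x * a' * a' := by rw [h1, hna]
            _ = x := by rw [mul_assoc, hsqP a' ha'P, mul_one]
        exact mul_inv_eq_iff_eq_mul.1 h2
      have hn0 : orderOf n ≠ 0 := (orderOf_pos n).ne'
      obtain ⟨e, m, hmodd, hem⟩ := Nat.exists_eq_two_pow_mul_odd hn0
      have hmP : n ^ m ∈ (P : Subgroup C) := by
        have h2 : IsPGroup 2 (zpowers (n ^ m)) := by
          rw [IsPGroup.iff_card]
          have h3 : orderOf (n ^ m) ∣ 2 ^ e := orderOf_dvd_of_pow_eq_one (by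
            rw [← pow_mul, mul_comm, ← hem, pow_orderOf_eq_one])
          obtain ⟨j, -, hj⟩ := (Nat.dvd_prime_pow Nat.prime_two).1 h3
          exact ⟨j, by rw [Nat.card_zpowers, hj]⟩
        have h3 := h2.inf_normalizer_sylow P
        have h4 := h3.le (mem_inf.2 ⟨mem_zpowers (n ^ m), pow_mem hn _⟩)
        exact (mem_inf.1 h4).2
      obtain ⟨j, hj⟩ := hmodd
      have h5 : n ^ m * x = x * n ^ m := hcommP _ hmP x hx
      have h6 : n ^ m = n * (n * n) ^ j := by
        rw [← pow_two, ← pow_mul, hj, pow_succ']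
      have h7 : (n * n) ^ j * x = x * (n * n) ^ j := (hnn.pow_left j).eq
      have h8 : n * x * (n * n) ^ j = x * n * (n * n) ^ j := by
        calc n * x * (n * n) ^ j = n * ((n * n) ^ j * x) := by rw [h7]; group
          _ = n ^ m * x := by rw [h6]; group
          _ = x * n ^ m := h5
          _ = x * n * (n * n) ^ j := by rw [h6]; group
      exact hne (mul_right_cancel h8).symm
  set φ := MonoidHom.transferSylow P hNC with hφ
  have hcompl : IsComplement' φ.ker (P : Subgroup C) := MonoidHom.ker_transferSylow_isComplement' P hNC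
  refine ⟨φ.ker.map C.subtype, ?_, ?_⟩
  · rw [card_map_of_injective C.subtype_injective, ← hcardP, mul_comm, hcompl.card_mul_card]
  · intro x hx hodd
    refine ⟨⟨x, hx⟩, ?_, rfl⟩
    refine Lib.NormalHall.mem_of_orderOf_coprime_index φ.ker _ ?_
    rw [hcompl.symm.index_eq_card, hcardP, Subgroup.orderOf_mk]
    exact Nat.Coprime.pow_right 2 (Nat.coprime_two_right.2 hodd)

/-- A third element of a group of order greater than two. -/
theorem exists_ne_of_card {E : Subgroup G} (h : 2 < Nat.card E) (a : G) : ∃ b ∈ E, b ≠ 1 ∧ b ≠ a := by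
  haveI : Finite E := Nat.finite_of_card_ne_zero (by omega)
  have h1 : ({1, a} : Set G).ncard < (E : Set G).ncard := by
    have h2 : ({1, a} : Set G).ncard ≤ 2 := Set.ncard_insert_le _ _ |>.trans (by simp)
    have h3 : (E : Set G).ncard = Nat.card E := rfl
    omega
  obtain ⟨b, hb, hb'⟩ := Set.exists_mem_notMem_of_ncard_lt_ncard h1
  simp only [Set.mem_insert_iff, Set.mem_singleton_iff, not_or] at hb'
  exact ⟨b, hb, hb'⟩

/-- The property shared by the four-groups of extremely closed subgroups. -/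
def Star (E : Subgroup G) : Prop :=
  ∀ g : G, ∃ Q : Subgroup G, Odd (Nat.card Q) ∧ E ≤ normalizer (Q : Set G) ∧
    ∃ k ∈ Q, k⁻¹ * g ∈ normalizer (E : Set G)

/-- A subgroup containing `N(E)` and the centralisers of the involutions of `E` is everything. -/
theorem Star.eq_top {E : Subgroup G} (h : Star E) (h4 : Nat.card E = 4) (hsq : ∀ x ∈ E, x * x = 1)
    {M : Subgroup G} (hN : normalizer (E : Set G) ≤ M)
    (hC : ∀ a ∈ E, a ≠ 1 → centralizer ({a} : Set G) ≤ M) : M = ⊤ := by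
  have hcomm := comm_of_sq hsq
  obtain ⟨a, haE, ha1, -⟩ := exists_ne_of_card (show 2 < Nat.card E by omega) 1
  obtain ⟨b, hbE, hb1, hba⟩ := exists_ne_of_card (show 2 < Nat.card E by omega) a
  have hab : a ≠ b := hba.symm
  have hab1 : a * b ≠ 1 := by
    intro h1
    exact hab (by rw [eq_inv_of_mul_eq_one_left h1]; exact inv_eq_of_mul_eq_one_left (hsq b hbE))
  rw [eq_top_iff]
  intro g _
  obtain ⟨Q, hQ, hEQ, k, hk, hkg⟩ := h g
  have hQM : Q ≤ M := by
    refine Lib.KleinGen.le_of_klein Q M hQ a b (hsq a haE) (hsq b hbE) (hcomm a haE b hbE)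
      (fun x hx => (mem_normalizer_iff.1 (hEQ haE) x).1 hx)
      (fun x hx => (mem_normalizer_iff.1 (hEQ hbE) x).1 hx) ?_ ?_ ?_
    · exact inf_le_right.trans (hC a haE ha1)
    · exact inf_le_right.trans (hC b hbE hb1)
    · exact inf_le_right.trans (hC _ (mul_mem haE hbE) hab1)
  have h1 : g = k * (k⁻¹ * g) := by group
  rw [h1]
  exact mul_mem (hQM hk) (hN hkg)

/-- **Counting.** If the Klein four-group `E` is a Sylow 2-subgroup with property `Star`, then there are at most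
`|K_a| |K_b| |K_ab|` Klein four-subgroups, `K_x` the normal 2-complement of `C(x)`. -/
theorem Star.card_le [Finite G] {S : Sylow 2 G} (h : Star (S : Subgroup G))
    (h4 : Nat.card (S : Subgroup G) = 4) (hsq : ∀ x ∈ (S : Subgroup G), x * x = 1) {m : ℕ}
    (hm : ∀ a ∈ (S : Subgroup G), a ≠ 1 → Nat.card (centralizer ({a} : Set G)) ≤ m) :
    64 * Nat.card {V : Subgroup G // IsKleinFour V} ≤ m ^ 3 := by
  haveI : Fact (Nat.Prime 2) := ⟨Nat.prime_two⟩
  have hcomm := comm_of_sq hsq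
  obtain ⟨a, haE, ha1, -⟩ := exists_ne_of_card (show 2 < Nat.card (S : Subgroup G) by omega) 1
  obtain ⟨b, hbE, hb1, hba⟩ := exists_ne_of_card (show 2 < Nat.card (S : Subgroup G) by omega) a
  have hab1 : a * b ≠ 1 := by
    intro h1
    exact hba.symm (by rw [eq_inv_of_mul_eq_one_left h1]; exact inv_eq_of_mul_eq_one_left (hsq b hbE))
  obtain ⟨Ka, ha4, hKa⟩ := exists_complement S h4 hsq haE ha1
  obtain ⟨Kb, hb4, hKb⟩ := exists_complement S h4 hsq hbE hb1
  obtain ⟨Kc, hc4, hKc⟩ := exists_complement S h4 hsq (mul_mem haE hbE) hab1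
  have hoa : orderOf a = 2 := orderOf_eq_prime (by rw [pow_two]; exact hsq a haE) ha1
  have hob : orderOf b = 2 := orderOf_eq_prime (by rw [pow_two]; exact hsq b hbE) hb1
  have hodd : ∀ {Q : Subgroup G}, Odd (Nat.card Q) → ∀ x ∈ Q, Odd (orderOf x) := by
    intro Q hQ x hx
    exact Odd.of_dvd_nat hQ (Subgroup.orderOf_dvd_natCard Q hx)
  -- the parametrisation
  let f : Ka × Kb × Kc → Subgroup G := fun p =>
    (S : Subgroup G).map (MulAut.conj ((p.1 : G) * ((p.2.1 : G) * p.2.2 * p.2.1))).toMonoidHom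
  have hsurj : ∀ V : Subgroup G, IsKleinFour V → ∃ p, f p = V := by
    intro V hV
    have hVp : IsPGroup 2 V := by
      rw [IsPGroup.iff_card]
      exact ⟨2, by rw [hV.card_four]; norm_num⟩
    obtain ⟨P, hP⟩ := hVp.exists_le_sylow
    have hPV : (P : Subgroup G) = V := by
      refine (eq_of_le_of_card_ge hP ?_).symm
      rw [hV.card_four, ← h4]
      exact (P.card_eq_multiplicity.trans S.card_eq_multiplicity.symm).le
    obtain ⟨g, hg⟩ := MulAction.exists_smul_eq G S P
    have hgV : V = (S : Subgroup G).map (MulAut.conj g).toMonoidHom := by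
      rw [← hPV, ← hg]; rfl
    obtain ⟨Q, hQ, hEQ, k, hk, hkg⟩ := h g
    obtain ⟨c, hc, r, hr, v, hv, hk'⟩ := exists_decomp hQ hoa hob (hcomm a haE b hbE)
      (fun x hx => (mem_normalizer_iff.1 (hEQ haE) x).1 hx)
      (fun x hx => (mem_normalizer_iff.1 (hEQ hbE) x).1 hx) hk
    refine ⟨⟨⟨c, hKa c (mem_inf.1 hc).2 (hodd hQ c (mem_inf.1 hc).1)⟩,
      ⟨r, hKb r (mem_inf.1 hr).2 (hodd hQ r (mem_inf.1 hr).1)⟩,
      ⟨v, hKc v (mem_inf.1 hv).2 (hodd hQ v (mem_inf.1 hv).1)⟩⟩, ?_⟩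
    simp only [f]
    rw [← hk', hgV]
    have h1 : g = k * (k⁻¹ * g) := by group
    conv_rhs => rw [h1]
    ext x
    constructor
    · rintro ⟨y, hy, rfl⟩
      refine ⟨(k⁻¹ * g)⁻¹ * y * (k⁻¹ * g), ?_, ?_⟩
      · have h2 := (mem_normalizer_iff.1 (inv_mem hkg) y).1 hy
        rw [inv_inv] at h2
        exact h2
      · simp only [MulEquiv.toMonoidHom_eq_coe, MonoidHom.coe_coe, MulAut.conj_apply]
        group
    · rintro ⟨y, hy, rfl⟩
      refine ⟨(k⁻¹ * g) * y * (k⁻¹ * g)⁻¹, (mem_normalizer_iff.1 hkg y).1 hy, ?_⟩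
      simp only [MulEquiv.toMonoidHom_eq_coe, MonoidHom.coe_coe, MulAut.conj_apply]
      group
  have hle : Nat.card {V : Subgroup G // IsKleinFour V} ≤ Nat.card (Ka × Kb × Kc) := by
    have hinj : ∃ g : {V : Subgroup G // IsKleinFour V} → Ka × Kb × Kc, Function.Injective g := by
      choose g hg using fun V : {V : Subgroup G // IsKleinFour V} => hsurj V.1 V.2
      refine ⟨g, fun V W hVW => Subtype.ext ?_⟩
      rw [← hg V, ← hg W, hVW]
    obtain ⟨g, hg⟩ := hinj
    exact Nat.card_le_card_of_injective g hg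
  rw [Nat.card_prod, Nat.card_prod] at hle
  have ma := hm a haE ha1
  have mb := hm b hbE hb1
  have mc := hm _ (mul_mem haE hbE) hab1
  rw [← ha4] at ma
  rw [← hb4] at mb
  rw [← hc4] at mc
  calc 64 * Nat.card {V : Subgroup G // IsKleinFour V}
      ≤ 64 * (Nat.card Ka * (Nat.card Kb * Nat.card Kc)) := Nat.mul_le_mul_left _ hle
    _ = (4 * Nat.card Ka) * ((4 * Nat.card Kb) * (4 * Nat.card Kc)) := by ring
    _ ≤ m * (m * m) := Nat.mul_le_mul ma (Nat.mul_le_mul mb mc)
    _ = m ^ 3 := by ring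

end Cfsg.Agent.H266.Four
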