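import Cfsg.Agent.H594.CyclicMain
import Cfsg.Agent.CharactersDeep.ExtUnique

/-!
# The values of an extension on `C_R(w) w` (helper266)

`R` normal in `Γ`, `w` of order prime to `|R|`, `X` a character of `Γ` with irreducible restriction to `R`:
`X (c w) = κ β(c)` for `c ∈ C_R(w)`, with `κ ≠ 0` and `β` an irreducible character of `C_R(w)`.
-/

set_option autoImplicit false
set_option linter.style.haveILetI false

namespace Cfsg.Agent.H266.Glau

open Subgroup Cfsg Cfsg.Agent.Characters.Core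

variable {Γ : Type*} [Group Γ] [Finite Γ]

/-- The case `Γ = R ⟨w⟩`. -/
theorem values_top (R : Subgroup Γ) [R.Normal] (w : Γ) (hcop : (Nat.card R).Coprime (orderOf w))
    (htop : R ⊔ zpowers w = ⊤) {X : Γ → ℂ} (hX : IsCharacter Γ X)
    (hres : IsIrrCharacter R (fun r : R => X r)) :
    ∃ κ : ℂ, κ ≠ 0 ∧ ∃ β : ↥(R ⊓ centralizer ((zpowers w : Subgroup Γ) : Set Γ)) → ℂ,
      IsIrrCharacter _ β ∧
        ∀ c : ↥(R ⊓ centralizer ((zpowers w : Subgroup Γ) : Set Γ)), X (c * w) = κ * β c := by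
  classical
  letI : Fintype Γ := Fintype.ofFinite Γ
  set S := zpowers w with hS
  set C := R ⊓ centralizer (S : Set Γ) with hC
  letI : Fintype R := Fintype.ofFinite R
  letI : Fintype C := Fintype.ofFinite C
  have hcopS : (Nat.card R).Coprime (Nat.card S) := by rw [hS, Nat.card_zpowers]; exact hcop
  have hnorm : ∀ s ∈ S, ∀ g ∈ R, s * g * s⁻¹ ∈ R := fun s _ g hg => Subgroup.Normal.conj_mem inferInstance g hg s
  have hidx : R.index = Nat.card S := H594.Cyclic.index_eq hcopS htop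
  have hcf : IsClassFunction Γ X := isCharacter_isClassFunction hX
  obtain ⟨χh, hext, hdet⟩ := H594.Cyclic.exists_canonical R S hnorm hcopS hidx htop ⟨_, hres⟩ (by
    intro s _ g g' hg
    change X g' = X g
    rw [hg]
    exact hcf g s)
  obtain ⟨β, ε, hε, hval, -⟩ := H594.Cyclic.core R S hcopS hidx C rfl χh.2 (by
    have : (fun g : R => (χh : Γ → ℂ) g) = fun g : R => X g := funext fun g => hext g
    rw [this]
    exact hres) hdet (s := w) rfl
  obtain ⟨l, hl, hX2⟩ := CharactersDeep.ExtUnique.exists_hom_mul_of_restrict_eq R (isIrr_isCharacter χh.2) hX hres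
    (fun n => hext n) fun n => rfl
  have hε0 : (ε : ℂ) ≠ 0 := by
    rcases hε with rfl | rfl <;> simp
  refine ⟨ε * l w, mul_ne_zero hε0 (l w).ne_zero, β, β.2, fun c => ?_⟩
  have hcR : (c : Γ) ∈ R := (mem_inf.1 c.2).1
  rw [hX2, hval c w rfl, map_mul, hl _ hcR, one_mul]
  ring

/-- The values of an extension on the coset. -/
theorem values (R : Subgroup Γ) [R.Normal] (w : Γ) (hcop : (Nat.card R).Coprime (orderOf w))
    {X : Γ → ℂ} (hX : IsCharacter Γ X) (hres : IsIrrCharacter R (fun r : R => X r)) :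
    ∃ κ : ℂ, κ ≠ 0 ∧ ∃ β : ↥(R ⊓ centralizer ({w} : Set Γ)) → ℂ,
      IsIrrCharacter _ β ∧ ∀ c : ↥(R ⊓ centralizer ({w} : Set Γ)), X (c * w) = κ * β c := by
  classical
  set L : Subgroup Γ := R ⊔ zpowers w with hL
  have hRL : R ≤ L := le_sup_left
  have hwL : w ∈ L := (le_sup_right : zpowers w ≤ L) (mem_zpowers w)
  set R' := R.subgroupOf L with hR'
  set w' : L := ⟨w, hwL⟩ with hw'
  have htop' : R' ⊔ zpowers w' = ⊤ := by
    have h1 : zpowers w' = (zpowers w).subgroupOf L := by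
      ext ⟨x, hx⟩
      rw [mem_subgroupOf, mem_zpowers_iff, mem_zpowers_iff]
      constructor
      · rintro ⟨k, hk⟩
        exact ⟨k, by simpa [w'] using congrArg Subtype.val hk⟩
      · rintro ⟨k, hk⟩
        exact ⟨k, Subtype.ext (by simpa [w'] using hk)⟩
    rw [h1, hR', ← subgroupOf_sup hRL le_sup_right, ← hL, subgroupOf_self]
  have hcard : Nat.card R' = Nat.card R := Nat.card_congr (subgroupOfEquivOfLe hRL).toEquiv
  have hord : orderOf w' = orderOf w := by rw [hw', orderOf_mk]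
  obtain ⟨κ, hκ, β, hβ, hval⟩ := values_top R' w' (by rw [hcard, hord]; exact hcop) htop'
    (X := fun x : L => X x) (isCharacter_comp L.subtype hX) (by
      have := isIrr_comp (subgroupOfEquivOfLe hRL).toMonoidHom (subgroupOfEquivOfLe hRL).surjective hres
      exact this)
  refine ⟨κ, hκ, ?_⟩
  -- transport
  have hmem : ∀ c : ↥(R ⊓ centralizer ({w} : Set Γ)), (⟨c, hRL (mem_inf.1 c.2).1⟩ : L) ∈
      R' ⊓ centralizer ((zpowers w' : Subgroup L) : Set L) := by
    intro c
    refine mem_inf.2 ⟨mem_subgroupOf.2 (mem_inf.1 c.2).1, mem_centralizer_iff.2 ?_⟩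
    rintro _ ⟨k, rfl⟩
    have h1 : Commute (c : Γ) w := mem_centralizer_singleton_iff.1 (mem_inf.1 c.2).2
    have h2 := (h1.zpow_right k).eq
    apply Subtype.ext
    simpa [w'] using h2.symm
  let f : ↥(R ⊓ centralizer ({w} : Set Γ)) →*
      ↥(R' ⊓ centralizer ((zpowers w' : Subgroup L) : Set L)) :=
    { toFun := fun c => ⟨⟨c, hRL (mem_inf.1 c.2).1⟩, hmem c⟩
      map_one' := rfl
      map_mul' := fun a b => rfl }
  have hf : Function.Surjective f := by
    rintro ⟨⟨x, hx⟩, hx12⟩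
    obtain ⟨hx1, hx2⟩ := mem_inf.1 hx12
    refine ⟨⟨x, mem_inf.2 ⟨mem_subgroupOf.1 hx1, mem_centralizer_singleton_iff.2 ?_⟩⟩, rfl⟩
    have h1 := mem_centralizer_iff.1 hx2 w' (mem_zpowers w')
    exact (congrArg Subtype.val h1).symm
  exact ⟨β ∘ f, isIrr_comp f hf hβ, fun c => hval (f c)⟩

end Cfsg.Agent.H266.Glau
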