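import Cfsg.Agent.ClassicalGeometry.PSL2Klein
import Cfsg.Agent.ClassicalGeometry.SLTwoFour

/-!
# Centralisers of involutions in `PSL₂(F)`, `F` of characteristic two
-/

set_option autoImplicit false

namespace Cfsg.Agent.H266.PslEven

open Cfsg.Agent.ClassicalGeometry.PSL2Klein Cfsg.Agent.ClassicalGeometry.SLTwoFour

variable {F : Type*} [Field F]

theorem sq_of_comm_SL [CharP F 2] {A B : Matrix.SpecialLinearGroup (Fin 2) F} (hA : A * A = 1)
    (hA1 : A ≠ 1) (hAB : A * B = B * A) : B * B = 1 := by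
  have h2 : (2 : F) = 0 := CharP.cast_eq_zero F 2
  have hneg : ∀ x : F, -x = x := fun x => CharTwo.neg_eq x
  have e00 : A 0 0 * A 0 0 + A 0 1 * A 1 0 = 1 := by rw [← mul00, hA]; exact one00
  have e11 : A 1 0 * A 0 1 + A 1 1 * A 1 1 = 1 := by
    rw [← mul11, hA]; simp
  have c01 : A 0 0 * B 0 1 + A 0 1 * B 1 1 = B 0 0 * A 0 1 + B 0 1 * A 1 1 := by
    rw [← mul01, ← mul01, hAB]
  have c10 : A 1 0 * B 0 0 + A 1 1 * B 1 0 = B 1 0 * A 0 0 + B 1 1 * A 1 0 := by
    rw [← mul10, ← mul10, hAB]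
  have dB := det2 B
  have dA := det2 A
  -- the trace of `A` vanishes
  have htr : A 0 0 = A 1 1 := by
    have h1 : (A 0 0 + A 1 1) * (A 0 0 + A 1 1) = 0 := by
      linear_combination e00 + e11 + 2 * dA + 2 * h2
    have h3 := mul_self_eq_zero.1 h1
    rw [← hneg (A 1 1)]
    exact eq_neg_of_add_eq_zero_left h3
  have hB : B 0 0 = B 1 1 := by
    by_contra hne
    have hb : A 0 1 = 0 := by
      have h1 : A 0 1 * (B 1 1 - B 0 0) = 0 := by
        linear_combination c01 - B 0 1 * htr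
      rcases mul_eq_zero.1 h1 with h | h
      · exact h
      · exact absurd (sub_eq_zero.1 h).symm hne
    have hc : A 1 0 = 0 := by
      have h1 : A 1 0 * (B 0 0 - B 1 1) = 0 := by
        linear_combination c10 + B 1 0 * htr
      rcases mul_eq_zero.1 h1 with h | h
      · exact h
      · exact absurd (sub_eq_zero.1 h) hne
    have ha : A 0 0 = 1 := by
      have h1 : (A 0 0 - 1) * (A 0 0 - 1) = 0 := by
        rw [hb] at e00
        linear_combination e00 - (A 0 0 - 1) * h2
      exact sub_eq_zero.1 (mul_self_eq_zero.1 h1)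
    apply hA1
    refine ext2 ?_ ?_ ?_ ?_
    · rw [ha]; simp
    · rw [hb]; simp
    · rw [hc]; simp
    · rw [← htr, ha]; simp
  refine ext2 ?_ ?_ ?_ ?_
  · rw [mul00, one00]
    linear_combination dB + B 0 0 * hB + B 0 1 * B 1 0 * h2
  · rw [mul01]
    simp only [Matrix.SpecialLinearGroup.coe_one, ne_eq, zero_ne_one, not_false_eq_true,
      Matrix.one_apply_ne]
    linear_combination B 0 1 * hB + B 0 1 * B 1 1 * h2
  · rw [mul10]
    simp only [Matrix.SpecialLinearGroup.coe_one, ne_eq, one_ne_zero, not_false_eq_true,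
      Matrix.one_apply_ne]
    linear_combination B 1 0 * hB + B 1 0 * B 1 1 * h2
  · rw [mul11]
    simp only [Matrix.SpecialLinearGroup.coe_one, Matrix.one_apply_eq]
    linear_combination dB - B 1 1 * hB + B 0 1 * B 1 0 * h2

theorem sq_of_comm [CharP F 2] {x y : Matrix.ProjectiveSpecialLinearGroup (Fin 2) F} (hx : x * x = 1)
    (hx1 : x ≠ 1) (hxy : x * y = y * x) : y * y = 1 := by
  obtain ⟨A, rfl⟩ := QuotientGroup.mk_surjective x
  obtain ⟨B, rfl⟩ := QuotientGroup.mk_surjective y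
  have hneg : (-1 : Matrix.SpecialLinearGroup (Fin 2) F) = 1 := by
    refine ext2 ?_ ?_ ?_ ?_
    · rw [neg_ij, one00]; exact CharTwo.neg_eq 1
    · rw [neg_ij]; simp
    · rw [neg_ij]; simp
    · rw [neg_ij]; simp [CharTwo.neg_eq]
  have hnegA : ∀ X : Matrix.SpecialLinearGroup (Fin 2) F, -X = X := by
    intro X
    have : -X = -1 * X := by simp
    rw [this, hneg, one_mul]
  have h1 : A * A = 1 := by
    have h := hx
    rw [← QuotientGroup.mk_mul] at h
    rcases mk_eq_one.1 h with h | h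
    · exact h
    · rw [h, hneg]
  have h2 : A ≠ 1 := by
    rintro rfl
    exact hx1 rfl
  have h3 : A * B = B * A := by
    have h := hxy
    rw [← QuotientGroup.mk_mul, ← QuotientGroup.mk_mul] at h
    rcases mk_eq_mk.1 h with h | h
    · exact h
    · rw [h, hnegA]
  have h4 := sq_of_comm_SL h1 h2 h3
  rw [← QuotientGroup.mk_mul, h4]
  rfl

end Cfsg.Agent.H266.PslEven
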