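import Cfsg.Agent.H266.EC

/-!
# Extremely closed abelian `p`-subgroups: the factorization `G = N_G(H) O_{p'}(G)`, reductions

`Fac p H : N_G(H) O_{p'}(G) = G`.
-/

set_option autoImplicit false
set_option linter.style.haveILetI false

namespace Cfsg.Agent.H266

open Subgroup Cfsg

universe u

/-- `G = N_G(H) O_{p'}(G)`. -/
def Fac (p : ℕ) {G : Type*} [Group G] (H : Subgroup G) : Prop :=
  normalizer (H : Set G) ⊔ pPrimeCore p G = ⊤

/-- The induction hypothesis. -/
def IH (p : ℕ) (G : Type u) [Group G] : Prop :=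
  ∀ (G' : Type u) [Group G'] [Finite G'] (H' : Subgroup G'), EC p H' → Nat.card G' < Nat.card G →
    Fac p H'

namespace EC

variable {G : Type u} [Group G] {p : ℕ} {H : Subgroup G}

theorem prime_not_dvd_of_coprime [Fact p.Prime] {n : ℕ} (h : n.Coprime p) : ¬ p ∣ n := by
  intro hd
  exact (Fact.out : p.Prime).one_lt.ne' (Nat.Coprime.eq_one_of_dvd h.symm hd)

/-- If a `p`-group and a `p'`-group. -/
theorem inf_eq_bot [Fact p.Prime] [Finite G] {A B : Subgroup G} (hA : IsPGroup p A)
    (hB : (Nat.card B).Coprime p) : A ⊓ B = ⊥ := by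
  obtain ⟨n, hn⟩ := hA.exists_card_eq
  refine (disjoint_of_coprime_natCard ?_).eq_bot
  rw [hn]
  exact (hB.pow_right n).symm

/-- Reduction modulo the `p'`-core. -/
theorem fac_of_pPrimeCore_ne_bot [Finite G] [Fact p.Prime] (h : EC p H) (ih : IH p G)
    (hne : pPrimeCore p G ≠ ⊥) : Fac p H := by
  set N := pPrimeCore p G with hN
  haveI : N.Normal := Lib.Cores.pPrimeCore_normal p
  have hcard : Nat.card (G ⧸ N) < Nat.card G := by
    have h1 := N.card_eq_card_quotient_mul_card_subgroup
    have h2 : 1 < Nat.card N := by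
      by_contra hle
      exact hne (N.eq_bot_of_card_le (not_lt.1 hle))
    have h3 : 0 < Nat.card (G ⧸ N) := Nat.card_pos
    rw [h1]
    nlinarith
  have h1 := ih (G ⧸ N) _ (h.map_mk N) hcard
  unfold Fac at h1
  have h0 : pPrimeCore p (G ⧸ N) = ⊥ := Lib.Cores.pPrimeCore_quotient_pPrimeCore p
  rw [h0, sup_bot_eq] at h1
  unfold Fac
  rw [eq_top_iff]
  intro g _
  have h2 : ∀ x ∈ H, g * x * g⁻¹ ∈ H ⊔ N := by
    intro x hx
    have h3 : QuotientGroup.mk' N g ∈ normalizer ((H.map (QuotientGroup.mk' N) : Subgroup (G ⧸ N)) :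
        Set (G ⧸ N)) := by rw [h1]; trivial
    have h4 := (mem_normalizer_iff.1 h3 (QuotientGroup.mk' N x)).1 ⟨x, hx, rfl⟩
    rw [← map_mul, ← map_inv, ← map_mul] at h4
    have : (H.map (QuotientGroup.mk' N)).comap (QuotientGroup.mk' N) = H ⊔ N := by
      rw [Subgroup.comap_map_eq, QuotientGroup.ker_mk']
    rw [← this]
    exact h4
  obtain ⟨n, hn, hng⟩ := Lib.LocalCore.exists_mul_mem_normalizer p N H
    (Lib.Cores.pPrimeCore_coprime p) h.pg h2
  have : g = n⁻¹ * (n * g) := by group
  rw [this]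
  exact mul_mem (mem_sup_right (inv_mem hn)) (mem_sup_left hng)

/-- Conjugation by elements of the normaliser. -/
theorem pCore_le_normalizer [Finite G] [Fact p.Prime] (h : EC p H) :
    pCore p G ≤ normalizer (H : Set G) := by
  have h1 : IsPGroup p ↥(H ⊔ pCore p G : Subgroup G) :=
    h.pg.to_sup_of_normal_right (Lib.Cores.pCore_isPGroup p)
  exact le_trans (le_trans le_sup_right le_normalizer)
    (Cfsg.Agent.S3021.normalizer_le H h.cl _ h1 le_sup_left)

theorem mem_pow_conj {A : Subgroup G} {g : G} (hg : g ∈ normalizer (A : Set G)) {x : G} (hx : x ∈ A) :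
    g * x * g⁻¹ ∈ A := (mem_normalizer_iff.1 hg x).1 hx

/-- For a normal `p`-subgroup `N` (normalising `H`) the groups `O_{p'}(⟨H, gHg⁻¹⟩)` centralise `N`. -/
theorem core_centralizes [Finite G] [Fact p.Prime] (h : EC p H) (N : Subgroup G) [N.Normal]
    (hNp : IsPGroup p N) (hNH : N ≤ normalizer (H : Set G)) (g : G) (Q : Subgroup G)
    (hQ : (Nat.card Q).Coprime p)
    (hTQ : H ⊔ H.map (MulAut.conj g).toMonoidHom ≤ normalizer (Q : Set G))
    (hHQ : H ⊔ Q = H ⊔ H.map (MulAut.conj g).toMonoidHom)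
    (k : G) (hk : k ∈ Q) (hkg : k⁻¹ * g ∈ normalizer (H : Set G)) :
    Q ≤ centralizer (N : Set G) := by
  set T := H ⊔ H.map (MulAut.conj g).toMonoidHom with hT
  set D := H ⊓ N with hD
  have hNQ : N ⊓ Q = ⊥ := inf_eq_bot hNp hQ
  have hNn : ∀ (y : G), y ∈ normalizer (N : Set G) := fun y =>
    (normalizer_eq_top (H := N)) ▸ mem_top y
  -- `Q` centralises `D`
  have hQD : ∀ q ∈ Q, ∀ d ∈ D, q * d = d * q := by
    intro q hq d hd
    obtain ⟨hdH, hdN⟩ := mem_inf.1 hd
    have h1 : q * d * q⁻¹ * d⁻¹ ∈ N := mul_mem (mem_pow_conj (hNn q) hdN) (inv_mem hdN)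
    have h2 : q * d * q⁻¹ * d⁻¹ ∈ Q := by
      have h3 : d * q⁻¹ * d⁻¹ ∈ Q := mem_pow_conj (hTQ (mem_sup_left hdH)) (inv_mem hq)
      have h4 : q * d * q⁻¹ * d⁻¹ = q * (d * q⁻¹ * d⁻¹) := by group
      rw [h4]; exact mul_mem hq h3
    have h5 : q * d * q⁻¹ * d⁻¹ ∈ N ⊓ Q := mem_inf.2 ⟨h1, h2⟩
    rw [hNQ, mem_bot] at h5
    have h6 : q * d * q⁻¹ = d := mul_inv_eq_one.1 h5
    calc q * d = (q * d * q⁻¹) * q := by group
      _ = d * q := by rw [h6]
  -- `[n, a] ∈ D` for `a ∈ H`
  have hNHD : ∀ a ∈ H, ∀ n ∈ N, n * a * n⁻¹ * a⁻¹ ∈ D := by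
    intro a ha n hn
    refine mem_inf.2 ⟨mul_mem (mem_pow_conj (hNH hn) ha) (inv_mem ha), ?_⟩
    have h1 : a * n⁻¹ * a⁻¹ ∈ N := mem_pow_conj (hNn a) (inv_mem hn)
    have h2 : n * a * n⁻¹ * a⁻¹ = n * (a * n⁻¹ * a⁻¹) := by group
    rw [h2]; exact mul_mem hn h1
  -- conjugation by `g` fixes `D`
  have hgD : ∀ d ∈ D, g * d * g⁻¹ ∈ D := by
    intro d hd
    obtain ⟨hdH, hdN⟩ := mem_inf.1 hd
    have h1 : (k⁻¹ * g) * d * (k⁻¹ * g)⁻¹ ∈ D :=
      mem_inf.2 ⟨mem_pow_conj hkg hdH, mem_pow_conj (hNn _) hdN⟩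
    have h2 := hQD k hk _ h1
    have h3 : g * d * g⁻¹ = k * ((k⁻¹ * g) * d * (k⁻¹ * g)⁻¹) * k⁻¹ := by group
    rw [h3, h2]
    simpa [mul_assoc] using h1
  -- the subgroup of elements `t` with `[n, t] ∈ D` and normalising `D`
  let S : Subgroup G :=
    { carrier := {t | (∀ n ∈ N, n * t * n⁻¹ * t⁻¹ ∈ D) ∧ t ∈ normalizer (D : Set G)}
      one_mem' := by
        refine ⟨fun n _ => ?_, one_mem _⟩
        simp
      mul_mem' := by
        rintro s t ⟨hs, hsD⟩ ⟨ht, htD⟩
        refine ⟨fun n hn => ?_, mul_mem hsD htD⟩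
        have h1 : n * (s * t) * n⁻¹ * (s * t)⁻¹ =
            (n * s * n⁻¹ * s⁻¹) * (s * (n * t * n⁻¹ * t⁻¹) * s⁻¹) := by group
        rw [h1]
        exact mul_mem (hs n hn) (mem_pow_conj hsD (ht n hn))
      inv_mem' := by
        rintro s ⟨hs, hsD⟩
        refine ⟨fun n hn => ?_, inv_mem hsD⟩
        have h1 : n * s⁻¹ * n⁻¹ * s⁻¹⁻¹ = (s⁻¹ * (n * s * n⁻¹ * s⁻¹) * s⁻¹⁻¹)⁻¹ := by group
        rw [h1]
        exact inv_mem (mem_pow_conj (inv_mem hsD) (hs n hn)) }
  have hHS : H ≤ S := by
    intro a ha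
    refine ⟨fun n hn => hNHD a ha n hn, ?_⟩
    refine mem_normalizer_fintype (S := (D : Set G)) fun d hd => ?_
    have h1 : a * d * a⁻¹ = d := by
      rw [h.ab a ha d (mem_inf.1 hd).1]; group
    rw [h1]; exact hd
  have hgS : H.map (MulAut.conj g).toMonoidHom ≤ S := by
    rintro _ ⟨a, ha, rfl⟩
    simp only [MulEquiv.toMonoidHom_eq_coe, MonoidHom.coe_coe, MulAut.conj_apply]
    constructor
    · intro n hn
      have h1 : g⁻¹ * n * g ∈ N := by
        have := mem_pow_conj (hNn g⁻¹) hn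
        simpa using this
      have h2 := hgD _ (hNHD a ha _ h1)
      have h3 : n * (g * a * g⁻¹) * n⁻¹ * (g * a * g⁻¹)⁻¹ =
          g * (g⁻¹ * n * g * a * (g⁻¹ * n * g)⁻¹ * a⁻¹) * g⁻¹ := by group
      rw [h3]; exact h2
    · refine mem_normalizer_fintype (S := (D : Set G)) fun d hd => ?_
      have hgN : g ∈ normalizer (D : Set G) := mem_normalizer_fintype (S := (D : Set G)) hgD
      have h1 : g⁻¹ * d * g ∈ D := by
        have := mem_pow_conj (inv_mem hgN) hd
        simpa using this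
      have h2 : a * (g⁻¹ * d * g) * a⁻¹ = g⁻¹ * d * g := by
        rw [h.ab a ha _ (mem_inf.1 h1).1]; group
      have h3 : g * a * g⁻¹ * d * (g * a * g⁻¹)⁻¹ = g * (a * (g⁻¹ * d * g) * a⁻¹) * g⁻¹ := by group
      rw [h3, h2]
      have h4 : g * (g⁻¹ * d * g) * g⁻¹ = d := by group
      rw [h4]; exact hd
  have hQS : Q ≤ S := by
    have : Q ≤ T := by rw [← hHQ]; exact le_sup_right
    exact le_trans this (sup_le hHS hgS)
  refine Lib.CoprimeStab.le_centralizer_of_commutator_le (H := N) (A := Q) (K := D) ?_ inf_le_right ?_ ?_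
  · obtain ⟨n, hn⟩ := hNp.exists_card_eq
    rw [hn]
    exact hQ.pow_right n
  · rw [commutator_le]
    intro n hn q hq
    exact (hQS hq).1 n hn
  · intro q hq
    exact mem_centralizer_iff.2 fun d hd => (hQD q hq d hd).symm

/-- Elements of order prime to `p` of `H ⊔ C`, `C` normal, lie in `C`. -/
theorem index_coprime_aux [Finite G] [Fact p.Prime] (h : IsPGroup p H) (C : Subgroup G) [C.Normal]
    (htop : H ⊔ C = ⊤) {n : ℕ} (hn : n.Coprime p) : n.Coprime C.index := by
  have h1 : C.index = C.relIndex H := by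
    rw [← Subgroup.relIndex_top_right, ← htop, Subgroup.relIndex_sup_right]
  have h2 : C.relIndex H ∣ Nat.card H := by
    exact (C.subgroupOf H).index_dvd_card
  obtain ⟨k, hk⟩ := h.exists_card_eq
  rw [hk, ← h1] at h2
  exact Nat.Coprime.coprime_dvd_right h2 (hn.pow_right k)

theorem fac_of_normal [Finite G] (hN : H.Normal) : Fac p H := by
  unfold Fac
  rw [normalizer_eq_top_iff.2 hN, top_sup_eq]

/-- The induction hypothesis for a proper subgroup containing `H` with trivial `p'`-core: it normalises `H`. -/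
theorem le_normalizer_of_lt [Finite G] [Fact p.Prime] (h : EC p H) (ih : IH p G) (L : Subgroup G)
    (hHL : H ≤ L) (hL : L ≠ ⊤) (hcore : pPrimeCore p L = ⊥) : L ≤ normalizer (H : Set G) := by
  have hcard : Nat.card L < Nat.card G := by
    rcases lt_or_eq_of_le (Nat.card_le_card_of_injective _ L.subtype_injective) with h1 | h1
    · exact h1
    · exact absurd (L.eq_top_of_card_eq h1) hL
  have h1 := ih L _ (h.subgroupOf hHL) hcard
  unfold Fac at h1
  rw [hcore, sup_bot_eq, ← subgroupOf_normalizer_eq hHL, subgroupOf_eq_top] at h1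
  exact h1

/-- The induction hypothesis for a proper subgroup containing `H`. -/
theorem le_sup_of_lt [Finite G] [Fact p.Prime] (h : EC p H) (ih : IH p G) (L : Subgroup G)
    (hHL : H ≤ L) (hL : L ≠ ⊤) :
    L = (normalizer (H : Set G) ⊓ L) ⊔ (pPrimeCore p L).map L.subtype := by
  have hcard : Nat.card L < Nat.card G := by
    rcases lt_or_eq_of_le (Nat.card_le_card_of_injective _ L.subtype_injective) with h1 | h1
    · exact h1
    · exact absurd (L.eq_top_of_card_eq h1) hL
  have h1 := ih L _ (h.subgroupOf hHL) hcard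
  unfold Fac at h1
  have h2 := congrArg (Subgroup.map L.subtype) h1
  rw [Subgroup.map_sup, ← subgroupOf_normalizer_eq hHL, subgroupOf_map_subtype,
    ← MonoidHom.range_eq_map, range_subtype] at h2
  exact h2.symm

/-- Reduction to `O_p(G) = 1`. -/
theorem fac_of_pCore_ne_bot [Finite G] [Fact p.Prime] (h : EC p H) (ih : IH p G)
    (hcore : pPrimeCore p G = ⊥) (hne : pCore p G ≠ ⊥) : Fac p H := by
  set N := pCore p G with hN
  haveI hNn : N.Normal := Lib.Cores.pCore_normal p
  have hNp : IsPGroup p N := Lib.Cores.pCore_isPGroup p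
  have hNH : N ≤ normalizer (H : Set G) := h.pCore_le_normalizer
  set C : Subgroup G := centralizer (N : Set G) with hC
  haveI : C.Normal := inferInstanceAs (centralizer (N : Set G)).Normal
  -- `G = N_G(H) C`
  have hGC : normalizer (H : Set G) ⊔ C = ⊤ := by
    rw [eq_top_iff]
    intro g _
    obtain ⟨Q, hQ, hTQ, hHQ, hQN, k, hk, hkg⟩ := h.exists_core g
    have h1 := h.core_centralizes N hNp hNH g Q hQ hTQ hHQ k hk hkg
    have : g = k * (k⁻¹ * g) := by group
    rw [this]
    exact mul_mem (mem_sup_right (h1 hk)) (mem_sup_left hkg)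
  -- `L = H C` is normal
  have hLn : (H ⊔ C : Subgroup G).Normal := by
    rw [← normalizer_eq_top_iff, eq_top_iff, ← hGC]
    refine sup_le ?_ ?_
    · intro g hg
      refine mem_normalizer_fintype (S := ((H ⊔ C : Subgroup G) : Set G)) fun x hx => ?_
      obtain ⟨a, ha, c, hc, rfl⟩ := mem_sup_of_normal_right.1 hx
      have h1 : g * (a * c) * g⁻¹ = (g * a * g⁻¹) * (g * c * g⁻¹) := by group
      rw [h1]
      exact mul_mem (mem_sup_left (mem_pow_conj hg ha))
        (mem_sup_right (Normal.conj_mem inferInstance c hc g))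
    · exact le_trans le_sup_right le_normalizer
  by_cases hL : H ⊔ C = ⊤
  · -- quotient by `N`
    have hcard : Nat.card (G ⧸ N) < Nat.card G := by
      have h1 := N.card_eq_card_quotient_mul_card_subgroup
      have h2 : 1 < Nat.card N := by
        by_contra hle
        exact hne (N.eq_bot_of_card_le (not_lt.1 hle))
      have h3 : 0 < Nat.card (G ⧸ N) := Nat.card_pos
      rw [h1]
      nlinarith
    have h1 := ih (G ⧸ N) _ (h.map_mk N) hcard
    unfold Fac at h1
    -- the `p'`-core of `G / N` is trivial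
    have h2 : pPrimeCore p (G ⧸ N) = ⊥ := by
      set E : Subgroup G := (pPrimeCore p (G ⧸ N)).comap (QuotientGroup.mk' N) with hE
      haveI : E.Normal := Normal.comap (Lib.Cores.pPrimeCore_normal p) _
      haveI : (E ⊓ C).Normal := inferInstance
      have hNE : N ≤ E := by
        intro x hx
        rw [hE, mem_comap]
        have : QuotientGroup.mk' N x = 1 := by
          rw [QuotientGroup.mk'_apply, QuotientGroup.eq_one_iff]; exact hx
        rw [this]; exact one_mem _
      -- `E ∩ C` has a central Sylow subgroup `N ∩ C`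
      set E' : Subgroup G := E ⊓ C with hE'
      set Z : Subgroup E' := N.subgroupOf E' with hZ
      haveI : Z.Normal := inferInstance
      have hZi : Z.index.Coprime p := by
        set φ : E' →* G ⧸ N := (QuotientGroup.mk' N).comp E'.subtype with hφ
        have h3 : φ.ker = Z := by
          rw [hφ, ← MonoidHom.comap_ker, QuotientGroup.ker_mk']
          rfl
        have h4 : φ.range ≤ pPrimeCore p (G ⧸ N) := by
          rintro _ ⟨x, rfl⟩
          exact (mem_inf.1 x.2).1
        rw [← h3, Subgroup.index_ker]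
        exact Nat.Coprime.coprime_dvd_left (card_dvd_of_le h4) (Lib.Cores.pPrimeCore_coprime p)
      have hidx : (Nat.card Z).Coprime Z.index := by
        have hZp : IsPGroup p Z := hNp.comap_subtype
        obtain ⟨n, hn⟩ := hZp.exists_card_eq
        rw [hn]
        exact Nat.Coprime.pow_left n hZi.symm
      obtain ⟨K, hK⟩ := Subgroup.exists_right_complement'_of_coprime hidx
      have hKn : K.Normal := by
        rw [← normalizer_eq_top_iff, eq_top_iff, ← hK.sup_eq_top]
        refine sup_le ?_ le_normalizer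
        intro z hz
        refine mem_normalizer_fintype (S := (K : Set E')) fun x hx => ?_
        have h3 : (z : G) * x * (z : G)⁻¹ = x := by
          have h4 : (x : G) ∈ C := (mem_inf.1 x.2).2
          have h5 := mem_centralizer_iff.1 h4 z hz
          rw [h5]; group
        have h6 : z * x * z⁻¹ = x := Subtype.ext h3
        rw [h6]; exact hx
      have hKc : (Nat.card K).Coprime p := by
        have h3 : Nat.card K = Z.index := hK.symm.index_eq_card.symm
        rw [h3]
        exact hZi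
      have hK1 : K = ⊥ := by
        have h3 : K ≤ pPrimeCore p E' := Lib.Cores.le_pPrimeCore hKn hKc
        have h4 := Lib.Cores.map_subtype_pPrimeCore p (N := E') inferInstance
        rw [hcore, inf_bot_eq] at h4
        have h5 : pPrimeCore p E' = ⊥ := (Subgroup.map_eq_bot_iff_of_injective _ E'.subtype_injective).1 h4
        rw [h5] at h3
        exact le_bot_iff.1 h3
      have hE'N : E' ≤ N := by
        have h3 := hK.sup_eq_top
        rw [hK1, sup_bot_eq] at h3
        exact subgroupOf_eq_top.1 h3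
      -- elements of order prime to `p`
      rw [eq_bot_iff]
      intro y hy
      obtain ⟨x, rfl⟩ := QuotientGroup.mk'_surjective N y
      have hx0 : orderOf x ≠ 0 := (orderOf_pos x).ne'
      obtain ⟨a, m, hm, ham⟩ := Nat.exists_eq_pow_mul_and_not_dvd hx0 p (Fact.out : p.Prime).ne_one
      have hmp : m.Coprime p := ((Fact.out : p.Prime).coprime_iff_not_dvd.2 hm).symm
      have hord : orderOf (x ^ p ^ a) = m := by
        rw [orderOf_pow_of_dvd (pow_ne_zero _ (Fact.out : p.Prime).ne_zero) ⟨m, ham⟩, ham,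
          Nat.mul_div_cancel_left _ (pow_pos (Fact.out : p.Prime).pos _)]
      have hxC : x ^ p ^ a ∈ C :=
        Lib.NormalHall.mem_of_orderOf_coprime_index C _ (by
          rw [hord]; exact index_coprime_aux h.pg C hL hmp)
      have hxE : x ^ p ^ a ∈ E := pow_mem (show x ∈ E from hy) _
      have hxN : x ^ p ^ a ∈ N := hE'N (mem_inf.2 ⟨hxE, hxC⟩)
      have hx1 : x ^ p ^ a = 1 := by
        obtain ⟨k, hk⟩ := hNp ⟨_, hxN⟩
        have h3 : (x ^ p ^ a) ^ p ^ k = 1 := congrArg Subtype.val hk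
        have h4 : m ∣ p ^ k := hord ▸ orderOf_dvd_of_pow_eq_one h3
        have h5 : m = 1 := Nat.Coprime.eq_one_of_dvd (hmp.pow_right k) h4
        rw [← orderOf_eq_one_iff, hord, h5]
      have hy1 : (QuotientGroup.mk' N x) ^ p ^ a = 1 := by rw [← map_pow, hx1, map_one]
      have h3 : orderOf (QuotientGroup.mk' N x) ∣ p ^ a := orderOf_dvd_of_pow_eq_one hy1
      have h4 : orderOf (QuotientGroup.mk' N x) ∣ Nat.card (pPrimeCore p (G ⧸ N)) :=
        Subgroup.orderOf_dvd_natCard _ hy
      have h5 : (orderOf (QuotientGroup.mk' N x)).Coprime (p ^ a) :=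
        (Nat.Coprime.coprime_dvd_left h4 (Lib.Cores.pPrimeCore_coprime p)).pow_right a
      rw [mem_bot, ← orderOf_eq_one_iff]
      exact Nat.Coprime.eq_one_of_dvd h5 h3
    rw [h2, sup_bot_eq] at h1
    have h3 : normalizer ((H ⊔ N : Subgroup G) : Set G) = ⊤ := by
      rw [normalizer_eq_top_iff]
      have h4 := normalizer_eq_top_iff.1 h1
      have : (H.map (QuotientGroup.mk' N)).comap (QuotientGroup.mk' N) = H ⊔ N := by
        rw [Subgroup.comap_map_eq, QuotientGroup.ker_mk']
      rw [← this]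
      exact Normal.comap h4 _
    have h4 : IsPGroup p ↥(H ⊔ N : Subgroup G) := h.pg.to_sup_of_normal_right hNp
    have h5 := Cfsg.Agent.S3021.normalizer_le H h.cl _ h4 le_sup_left
    rw [h3] at h5
    exact fac_of_normal (normalizer_eq_top_iff.1 (top_le_iff.1 h5))
  · -- `L` is proper
    have h1 : pPrimeCore p ↥(H ⊔ C : Subgroup G) = ⊥ := by
      have h4 := Lib.Cores.map_subtype_pPrimeCore p hLn
      rw [hcore, inf_bot_eq] at h4
      exact (Subgroup.map_eq_bot_iff_of_injective _ (subtype_injective _)).1 h4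
    have h2 := h.le_normalizer_of_lt ih (H ⊔ C) le_sup_left hL h1
    refine fac_of_normal (normalizer_eq_top_iff.1 ?_)
    rw [eq_top_iff, ← hGC]
    exact sup_le le_rfl (le_trans le_sup_right h2)

end EC

end Cfsg.Agent.H266
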