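import Cfsg.Agent.H266.Reduce
import Cfsg.Agent.Lib.MinNormalNonabelian
import Cfsg.Agent.SolvableStructure.KegelNormal
import Cfsg.Agent.S0215
import Cfsg.Agent.S0216

/-!
# Extremely closed abelian `p`-subgroups: reduction of the factorization to almost simple groups
-/

set_option autoImplicit false
set_option linter.style.haveILetI false

namespace Cfsg.Agent.H266

open Subgroup Cfsg Lib.MinNormalNonabelian

universe u

namespace EC

variable {G : Type u} [Group G] {p : ℕ} {H : Subgroup G}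

/-- A `p`-element of `⟨H, gHg⁻¹⟩` is conjugate in this group to an element of `H`. -/
theorem exists_conj_mem [Finite G] [Fact p.Prime] (h : EC p H) (g : G) (x : G)
    (hx : x ∈ H ⊔ H.map (MulAut.conj g).toMonoidHom) {k : ℕ} (hk : x ^ p ^ k = 1) :
    ∃ t ∈ H ⊔ H.map (MulAut.conj g).toMonoidHom, t * x * t⁻¹ ∈ H := by
  obtain ⟨Q, hQ, hTQ, hHQ, hQN, -⟩ := h.exists_core g
  set T : Subgroup G := H ⊔ H.map (MulAut.conj g).toMonoidHom with hT
  have hHT : H ≤ T := le_sup_left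
  have hQT : Q ≤ T := by rw [← hHQ]; exact le_sup_right
  have hN : (Q.subgroupOf T).Normal := normal_subgroupOf_of_le_normalizer hTQ
  have hQc : (Nat.card (Q.subgroupOf T)).Coprime p := by
    rw [Nat.card_congr (subgroupOfEquivOfLe hQT).toEquiv]; exact hQ
  have hHpT : IsPGroup p (H.subgroupOf T) := h.pg.of_equiv (subgroupOfEquivOfLe hHT).symm
  obtain ⟨P, hP⟩ := hHpT.exists_le_sylow
  have hPH : (P : Subgroup T) = H.subgroupOf T := by
    refine le_antisymm ?_ hP
    intro y hy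
    have hyT : y ∈ (H.subgroupOf T ⊔ Q.subgroupOf T : Subgroup T) := by
      rw [← subgroupOf_sup hHT hQT, hHQ, subgroupOf_self]; trivial
    obtain ⟨a, ha, q, hq, rfl⟩ := mem_sup_of_normal_right.1 hyT
    have hqP : q ∈ (P : Subgroup T) := by
      have := mul_mem (inv_mem (hP ha)) hy
      rwa [inv_mul_cancel_left] at this
    have : q ∈ ((P : Subgroup T) ⊓ Q.subgroupOf T : Subgroup T) := mem_inf.2 ⟨hqP, hq⟩
    rw [inf_eq_bot P.isPGroup' hQc, mem_bot] at this
    rw [this, mul_one]; exact ha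
  have hxp : IsPGroup p (zpowers (⟨x, hx⟩ : T)) := by
    rw [IsPGroup.iff_card]
    have h1 : orderOf (⟨x, hx⟩ : T) ∣ p ^ k := orderOf_dvd_of_pow_eq_one (Subtype.ext hk)
    obtain ⟨m, -, hm⟩ := (Nat.dvd_prime_pow (Fact.out : p.Prime)).1 h1
    exact ⟨m, by rw [Nat.card_zpowers, hm]⟩
  obtain ⟨P', hP'⟩ := hxp.exists_le_sylow
  obtain ⟨t, ht⟩ := MulAction.exists_smul_eq T P' P
  refine ⟨t, t.2, ?_⟩
  have h1 : (⟨x, hx⟩ : T) ∈ (P' : Subgroup T) := hP' (mem_zpowers _)
  have h2 : t * (⟨x, hx⟩ : T) * t⁻¹ ∈ (P : Subgroup T) := by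
    rw [← ht, Sylow.coe_subgroup_smul, Subgroup.mem_pointwise_smul_iff_inv_smul_mem]
    simpa [MulAut.smul_def, MulAut.conj_apply, mul_assoc] using h1
  rw [hPH, mem_subgroupOf] at h2
  exact h2

/-- `H` centralises a minimal normal subgroup `A` with `H A ≠ G`. -/
theorem le_centralizer_of_ne_top [Finite G] [Fact p.Prime] (h : EC p H) (ih : IH p G)
    (hc' : pPrimeCore p G = ⊥) (hc : pCore p G = ⊥) (A : Subgroup G) [A.Normal]
    (hne : H ⊔ A ≠ ⊤) : H ≤ centralizer (A : Set G) := by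
  set L : Subgroup G := H ⊔ A with hL
  have hAL : A ≤ L := le_sup_right
  have hHL : H ≤ L := le_sup_left
  haveI : (A.subgroupOf L).Normal := inferInstance
  have hsup : (H.subgroupOf L ⊔ A.subgroupOf L : Subgroup L) = ⊤ := by
    rw [← subgroupOf_sup hHL hAL, ← hL, subgroupOf_self]
  have hcore : pPrimeCore p L = ⊥ := by
    set O : Subgroup G := (pPrimeCore p L).map L.subtype with hO
    have hOA : O ≤ A := by
      rintro _ ⟨x, hx, rfl⟩
      have h1 : (orderOf x).Coprime p :=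
        Nat.Coprime.coprime_dvd_left (Subgroup.orderOf_dvd_natCard _ hx)
          (Lib.Cores.pPrimeCore_coprime p)
      have h2 := Lib.NormalHall.mem_of_orderOf_coprime_index (A.subgroupOf L) x
        (index_coprime_aux (h.pg.of_equiv (subgroupOfEquivOfLe hHL).symm) _ hsup h1)
      exact h2
    have h1 : O ≤ (pPrimeCore p A).map A.subtype :=
      Lib.LocalCore.le_map_pPrimeCore hOA (Lib.LocalCore.card_map_pPrimeCore_coprime p L)
        (le_trans hAL (Lib.LocalCore.le_normalizer_map_pPrimeCore p L))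
    rw [Lib.Cores.map_subtype_pPrimeCore p inferInstance, hc', inf_bot_eq, le_bot_iff] at h1
    exact (Subgroup.map_eq_bot_iff_of_injective _ L.subtype_injective).1 h1
  have hLN := h.le_normalizer_of_lt ih L hHL hne hcore
  have hinf : H ⊓ A = ⊥ := by
    have h1 : A ≤ normalizer ((H ⊓ A : Subgroup G) : Set G) := by
      intro a ha
      refine mem_normalizer_fintype (S := ((H ⊓ A : Subgroup G) : Set G)) fun x hx => ?_
      exact mem_inf.2 ⟨mem_pow_conj (hLN (hAL ha)) (mem_inf.1 hx).1,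
        mul_mem (mul_mem ha (mem_inf.1 hx).2) (inv_mem ha)⟩
    have h2 : (H ⊓ A : Subgroup G) ≤ (pCore p A).map A.subtype :=
      Lib.LocalCore.le_map_pCore inf_le_right (h.pg.to_le inf_le_left) h1
    rw [Lib.Cores.map_subtype_pCore p inferInstance, hc, inf_bot_eq, le_bot_iff] at h2
    exact h2
  intro x hx
  refine mem_centralizer_iff.2 fun a ha => ?_
  have h1 : a * x * a⁻¹ * x⁻¹ ∈ H ⊓ A := by
    refine mem_inf.2 ⟨mul_mem (mem_pow_conj (hLN (hAL ha)) hx) (inv_mem hx), ?_⟩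
    have h2 : a * x * a⁻¹ * x⁻¹ = a * (x * a⁻¹ * x⁻¹) := by group
    rw [h2]
    exact mul_mem ha (Normal.conj_mem inferInstance _ (inv_mem ha) x)
  rw [hinf, mem_bot] at h1
  have h2 : a * x * a⁻¹ = x := mul_inv_eq_one.1 h1
  calc a * x = (a * x * a⁻¹) * a := by group
    _ = x * a := by rw [h2]

/-- The existence of the component. -/
theorem exists_minimal [Finite G] [Fact p.Prime] (h : EC p H) (ih : IH p G)
    (hc' : pPrimeCore p G = ⊥) (hc : pCore p G = ⊥) (hne : H ≠ ⊥) :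
    ∃ A : Subgroup G, A.Normal ∧ A ≠ ⊥ ∧ (∀ M : Subgroup G, M.Normal → M ≤ A → M = ⊥ ∨ M = A) ∧
      (¬ ∀ x ∈ A, ∀ y ∈ A, Commute x y) ∧ H ⊔ A = ⊤ := by
  by_contra hcon
  push Not at hcon
  have hmin' : ∀ A : Subgroup G, A.Normal → A ≠ ⊥ →
      (∀ M : Subgroup G, M.Normal → M ≤ A → M = ⊥ ∨ M = A) → ¬ ∀ x ∈ A, ∀ y ∈ A, Commute x y := by
    intro A hA hA1 hmin hab
    haveI := hA
    obtain ⟨q, hq, hqA, -⟩ := Lib.MinNormalNonabelian.abelian_structure A hA1 hmin hab
    by_cases hqp : q = p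
    · subst hqp
      exact hA1 (le_bot_iff.1 (hc ▸ Lib.Cores.le_pCore hA hqA))
    · haveI : Fact q.Prime := ⟨hq⟩
      obtain ⟨n, hn⟩ := hqA.exists_card_eq
      have : (Nat.card A).Coprime p := by
        rw [hn]
        exact Nat.Coprime.pow_left n ((Nat.coprime_primes hq Fact.out).2 hqp)
      exact hA1 (le_bot_iff.1 (hc' ▸ Lib.Cores.le_pPrimeCore hA this))
  -- all minimal normal subgroups are centralised
  have hall : ∀ A : Subgroup G, A.Normal → A ≠ ⊥ →
      (∀ M : Subgroup G, M.Normal → M ≤ A → M = ⊥ ∨ M = A) → H ≤ centralizer (A : Set G) := by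
    intro A hA hA1 hmin
    haveI := hA
    have h1 := hcon A hA hA1 hmin
    exact h.le_centralizer_of_ne_top ih hc' hc A (fun htop =>
      hmin' A hA hA1 hmin (by
        by_contra hno
        push Not at hno
        exact h1 hno htop))
  let S : Set (Subgroup G) := {A | A.Normal ∧ A ≠ ⊥ ∧
    (∀ M : Subgroup G, M.Normal → M ≤ A → M = ⊥ ∨ M = A)}
  have hSn : (sSup S).Normal := Lib.Cores.sSup_normal S fun A hA => hA.1
  haveI := hSn
  have hHC : H ≤ centralizer ((sSup S : Subgroup G) : Set G) := by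
    rw [le_centralizer_iff]
    refine sSup_le fun A hA => ?_
    rw [le_centralizer_iff]
    exact hall A hA.1 hA.2.1 hA.2.2
  have hCn : (centralizer ((sSup S : Subgroup G) : Set G)).Normal := inferInstance
  have hCne : centralizer ((sSup S : Subgroup G) : Set G) ≠ ⊥ := fun hb =>
    hne (le_bot_iff.1 (hb ▸ hHC))
  obtain ⟨M, hM, hMC, hM1, hMmin⟩ := SolvableStructure.KegelNormal.exists_minimal_normal_le _ hCn hCne
  have hMmin' : ∀ K : Subgroup G, K.Normal → K ≤ M → K = ⊥ ∨ K = M := by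
    intro K hK hKM
    by_cases hK1 : K = ⊥
    · exact Or.inl hK1
    · exact Or.inr (hMmin K hK hKM hK1)
  refine hmin' M hM hM1 hMmin' fun x hx y hy => ?_
  have hyS : y ∈ sSup S := (le_sSup (show M ∈ S from ⟨hM, hM1, hMmin'⟩)) hy
  exact (mem_centralizer_iff.1 (hMC hx) y hyS).symm

/-- The centraliser of the component is trivial. -/
theorem centralizer_eq_bot [Finite G] [Fact p.Prime] (h : EC p H)
    (hc : pCore p G = ⊥) (A : Subgroup G) [A.Normal]
    (hmin : ∀ M : Subgroup G, M.Normal → M ≤ A → M = ⊥ ∨ M = A)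
    (hna : ¬ ∀ x ∈ A, ∀ y ∈ A, Commute x y) (htop : H ⊔ A = ⊤) :
    centralizer (A : Set G) = ⊥ := by
  set C : Subgroup G := centralizer (A : Set G) with hC
  haveI : C.Normal := inferInstanceAs (centralizer (A : Set G)).Normal
  have hCA : C ⊓ A = ⊥ := by
    rcases hmin (C ⊓ A) inferInstance inf_le_right with h1 | h1
    · exact h1
    · exfalso
      refine hna fun x hx y hy => ?_
      have h2 : y ∈ C ⊓ A := by rw [h1]; exact hy
      exact mem_centralizer_iff.1 (mem_inf.1 h2).1 x hx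
  have hCp : IsPGroup p C := by
    intro ⟨x, hx⟩
    have hx0 : orderOf x ≠ 0 := (orderOf_pos x).ne'
    obtain ⟨a, m, hm, ham⟩ := Nat.exists_eq_pow_mul_and_not_dvd hx0 p (Fact.out : p.Prime).ne_one
    have hmp : m.Coprime p := ((Fact.out : p.Prime).coprime_iff_not_dvd.2 hm).symm
    have hord : orderOf (x ^ p ^ a) = m := by
      rw [orderOf_pow_of_dvd (pow_ne_zero _ (Fact.out : p.Prime).ne_zero) ⟨m, ham⟩, ham,
        Nat.mul_div_cancel_left _ (pow_pos (Fact.out : p.Prime).pos _)]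
    have hxA : x ^ p ^ a ∈ A :=
      Lib.NormalHall.mem_of_orderOf_coprime_index A _ (by
        rw [hord]; exact index_coprime_aux h.pg A htop hmp)
    have h1 : x ^ p ^ a ∈ C ⊓ A := mem_inf.2 ⟨pow_mem hx _, hxA⟩
    rw [hCA, mem_bot] at h1
    exact ⟨a, Subtype.ext h1⟩
  exact le_bot_iff.1 (hc ▸ Lib.Cores.le_pCore inferInstance hCp)

/-- Conjugation by an element of `A` fixes the members of `minSet A`. -/
theorem map_conj_eq_of_mem {A S : Subgroup G} (hS : S ∈ minSet A) {a : G} (ha : a ∈ A) :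
    S.map (MulAut.conj a).toMonoidHom = S := by
  have h1 : A ≤ normalizer (S : Set G) := hS.2.2.1
  ext x
  constructor
  · rintro ⟨y, hy, rfl⟩
    exact mem_pow_conj (h1 ha) hy
  · intro hx
    refine ⟨a⁻¹ * x * a, ?_, ?_⟩
    · have := mem_pow_conj (inv_mem (h1 ha)) hx
      simpa using this
    · simp [mul_assoc]

theorem map_conj_mul (S : Subgroup G) (a b : G) :
    S.map (MulAut.conj (a * b)).toMonoidHom =
      (S.map (MulAut.conj b).toMonoidHom).map (MulAut.conj a).toMonoidHom := by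
  rw [Subgroup.map_map]
  congr 1
  ext x
  simp [mul_assoc]

/-- If `H` is abelian and transitive on `minSet A`, elements of `H` centralising a factor are trivial. -/
theorem eq_one_of_centralizes (h : EC p H) (A : Subgroup G) [A.Normal]
    (hcA : centralizer (A : Set G) = ⊥) (htop : H ⊔ A = ⊤) (hsup : sSup (minSet A) = A)
    (htr : ∀ S ∈ minSet A, ∀ T ∈ minSet A, ∃ g : G, T = S.map (MulAut.conj g).toMonoidHom)
    {B : Subgroup G} (hB : B ∈ minSet A) {x : G} (hx : x ∈ H) (hxB : ∀ b ∈ B, x * b = b * x) :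
    x = 1 := by
  have h1 : A ≤ centralizer ({x} : Set G) := by
    rw [← hsup]
    refine sSup_le fun T hT => ?_
    obtain ⟨g, hg⟩ := htr B hB T hT
    have hg' : g ∈ (H ⊔ A : Subgroup G) := by rw [htop]; trivial
    obtain ⟨k, hk, a, ha, rfl⟩ := mem_sup_of_normal_right.1 hg'
    rw [map_conj_mul, map_conj_eq_of_mem hB ha] at hg
    rw [hg]
    rintro _ ⟨b, hb, rfl⟩
    rw [mem_centralizer_singleton_iff]
    simp only [MulEquiv.toMonoidHom_eq_coe, MonoidHom.coe_coe, MulAut.conj_apply]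
    have h2 := hxB b hb
    have h3 := h.ab x hx k hk
    have h4 : x * k⁻¹ = k⁻¹ * x := by
      calc x * k⁻¹ = k⁻¹ * (k * x) * k⁻¹ := by group
        _ = k⁻¹ * (x * k) * k⁻¹ := by rw [h3]
        _ = k⁻¹ * x := by group
    calc k * b * k⁻¹ * x = k * b * (k⁻¹ * x) := by group
      _ = k * b * (x * k⁻¹) := by rw [h4]
      _ = k * (b * x) * k⁻¹ := by group
      _ = k * (x * b) * k⁻¹ := by rw [h2]
      _ = (k * x) * b * k⁻¹ := by group
      _ = (x * k) * b * k⁻¹ := by rw [h3]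
      _ = x * (k * b * k⁻¹) := by group
  have h2 : x ∈ centralizer (A : Set G) := by
    refine mem_centralizer_iff.2 fun a ha => ?_
    have := mem_centralizer_singleton_iff.1 (h1 ha)
    exact this
  rwa [hcA, mem_bot] at h2

/-- `p`-elements of `⟨H, gHg⁻¹⟩` centralising a factor are trivial. -/
theorem eq_one_of_centralizes' [Finite G] [Fact p.Prime] (h : EC p H) (A : Subgroup G) [A.Normal]
    (hcA : centralizer (A : Set G) = ⊥) (htop : H ⊔ A = ⊤) (hsup : sSup (minSet A) = A)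
    (htr : ∀ S ∈ minSet A, ∀ T ∈ minSet A, ∃ g : G, T = S.map (MulAut.conj g).toMonoidHom)
    {B : Subgroup G} (hB : B ∈ minSet A) (g : G) {x : G}
    (hx : x ∈ H ⊔ H.map (MulAut.conj g).toMonoidHom) {k : ℕ} (hk : x ^ p ^ k = 1)
    (hxB : ∀ b ∈ B, x * b = b * x) : x = 1 := by
  obtain ⟨t, -, ht⟩ := h.exists_conj_mem g x hx hk
  have h1 : t * x * t⁻¹ = 1 := by
    refine h.eq_one_of_centralizes A hcA htop hsup htr (map_conj_mem_minSet hB t) ht ?_
    rintro _ ⟨b, hb, rfl⟩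
    simp only [MulEquiv.toMonoidHom_eq_coe, MonoidHom.coe_coe, MulAut.conj_apply]
    calc t * x * t⁻¹ * (t * b * t⁻¹) = t * (x * b) * t⁻¹ := by group
      _ = t * (b * x) * t⁻¹ := by rw [hxB b hb]
      _ = t * b * t⁻¹ * (t * x * t⁻¹) := by group
  have h2 : x = t⁻¹ * (t * x * t⁻¹) * t := by group
  rw [h2, h1]; group

/-- The component is simple. -/
theorem mem_minSet_self [Finite G] [Fact p.Prime] (h : EC p H)
    (hc' : pPrimeCore p G = ⊥) (hc : pCore p G = ⊥) (A : Subgroup G) [A.Normal]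
    (hmin : ∀ M : Subgroup G, M.Normal → M ≤ A → M = ⊥ ∨ M = A)
    (hna : ¬ ∀ x ∈ A, ∀ y ∈ A, Commute x y) (htop : H ⊔ A = ⊤) :
    A ∈ minSet A := by
  by_contra hAm
  have hcA := h.centralizer_eq_bot hc A hmin hna htop
  obtain ⟨⟨A₁, hA₁⟩, hind, hsup, hsimp, hcent, htr⟩ := nonabelian_structure A hmin hna
  have hK : ∀ S ∈ minSet A, A ≤ normalizer (S : Set G) := fun S hS => hS.2.2.1
  have hle : ∀ S ∈ minSet A, S ≤ A := fun S hS => hS.1
  -- `H` does not normalise `A₁`
  obtain ⟨k, hkH, hk⟩ : ∃ k ∈ H, A₁.map (MulAut.conj k).toMonoidHom ≠ A₁ := by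
    by_contra hcon
    push Not at hcon
    have hn : A₁.Normal := by
      rw [← normalizer_eq_top_iff, eq_top_iff, ← htop]
      refine sup_le ?_ (hK A₁ hA₁)
      intro x hx
      refine mem_normalizer_fintype (S := (A₁ : Set G)) fun y hy => ?_
      have : x * y * x⁻¹ ∈ A₁.map (MulAut.conj x).toMonoidHom := ⟨y, hy, by simp⟩
      rwa [hcon x hx] at this
    rcases hmin A₁ hn (hle A₁ hA₁) with h1 | h1
    · exact hA₁.2.1 h1
    · exact hAm (h1 ▸ hA₁)
  set A₂ : Subgroup G := A₁.map (MulAut.conj k).toMonoidHom with hA₂d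
  have hA₂ : A₂ ∈ minSet A := map_conj_mem_minSet hA₁ k
  have hcomm : ∀ S ∈ minSet A, ∀ T ∈ minSet A, S ≠ T → ∀ x ∈ S, ∀ y ∈ T, x * y = y * x :=
    fun S hS T hT hne x hx y hy =>
      (Lib.MinNormal.commute_of_mem hind hK hle hS hT hne hx hy).eq
  have hdisj : ∀ S ∈ minSet A, ∀ T ∈ minSet A, S ≠ T → ∀ x ∈ S, x ∈ T → x = 1 := by
    intro S hS T hT hne x hx hxT
    have h1 : Disjoint S T := hind.pairwiseDisjoint hS hT hne
    exact Subgroup.disjoint_def.1 h1 hx hxT
  -- the `p`-elements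
  have hkey : ∀ a ∈ A₁, ∀ n : ℕ, a ^ p ^ n = 1 →
      ∃ u, u = a * (k * a⁻¹ * k⁻¹) ∧ u ∈ H ⊔ H.map (MulAut.conj a).toMonoidHom ∧
        u ^ p ^ n = 1 ∧ u ∈ A := by
    intro a ha n hn
    have hka : k * a⁻¹ * k⁻¹ ∈ A₂ := ⟨a⁻¹, inv_mem ha, by simp⟩
    refine ⟨_, rfl, ?_, ?_, ?_⟩
    · have h1 : a * (k * a⁻¹ * k⁻¹) = (a * k * a⁻¹) * k⁻¹ := by group
      rw [h1]
      exact mul_mem (mem_sup_right ⟨k, hkH, by simp⟩) (mem_sup_left (inv_mem hkH))
    · have h1 : Commute a (k * a⁻¹ * k⁻¹) := hcomm A₁ hA₁ A₂ hA₂ (Ne.symm hk) a ha _ hka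
      rw [h1.mul_pow, hn, one_mul]
      have h2 : k * a⁻¹ * k⁻¹ = MulAut.conj k a⁻¹ := by simp
      rw [h2, ← map_pow, inv_pow, hn, inv_one, map_one]
    · exact mul_mem (hle _ hA₁ ha) (hle _ hA₂ hka)
  -- if the `u` are trivial then `A₁` is a `p'`-group
  have hfin : (∀ a ∈ A₁, ∀ n : ℕ, a ^ p ^ n = 1 → a * (k * a⁻¹ * k⁻¹) = 1) → False := by
    intro hall
    have h1 : ∀ a ∈ A₁, ∀ n : ℕ, a ^ p ^ n = 1 → a = 1 := by
      intro a ha n hn
      have h2 := hall a ha n hn
      have h3 : a = k * a * k⁻¹ := by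
        calc a = (a * (k * a⁻¹ * k⁻¹)) * (k * a * k⁻¹) := by group
          _ = k * a * k⁻¹ := by rw [h2, one_mul]
      refine hdisj A₁ hA₁ A₂ hA₂ (Ne.symm hk) a ha ?_
      rw [h3]
      exact ⟨a, ha, by simp⟩
    have hcop : (Nat.card A₁).Coprime p := by
      refine Nat.Coprime.symm (((Fact.out : p.Prime).coprime_iff_not_dvd).2 fun hd => ?_)
      obtain ⟨x, hx⟩ := exists_prime_orderOf_dvd_card' p hd
      have h2 : (x : G) ^ p ^ 1 = 1 := by
        rw [pow_one, ← Subgroup.coe_pow, ← hx, pow_orderOf_eq_one, Subgroup.coe_one]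
      have h3 : (x : G) = 1 := h1 x x.2 1 h2
      have h4 : x = 1 := Subtype.ext h3
      rw [h4, orderOf_one] at hx
      exact (Fact.out : p.Prime).one_lt.ne hx
    have h2 : A₁ ≤ (pPrimeCore p A).map A.subtype :=
      Lib.LocalCore.le_map_pPrimeCore (hle _ hA₁) hcop (hK _ hA₁)
    rw [Lib.Cores.map_subtype_pPrimeCore p inferInstance, hc', inf_bot_eq, le_bot_iff] at h2
    exact hA₁.2.1 h2
  by_cases hthird : ∃ B ∈ minSet A, B ≠ A₁ ∧ B ≠ A₂
  · obtain ⟨B, hB, hB1, hB2⟩ := hthird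
    refine hfin fun a ha n hn => ?_
    obtain ⟨u, hu, huT, hun, huA⟩ := hkey a ha n hn
    rw [← hu]
    refine h.eq_one_of_centralizes' A hcA htop hsup htr hB a huT hun ?_
    intro b hb
    have h1 : a * b = b * a := hcomm A₁ hA₁ B hB (Ne.symm hB1) a ha b hb
    have h2 : (k * a⁻¹ * k⁻¹) * b = b * (k * a⁻¹ * k⁻¹) :=
      hcomm A₂ hA₂ B hB (Ne.symm hB2) _ ⟨a⁻¹, inv_mem ha, by simp⟩ b hb
    rw [hu, mul_assoc, h2, ← mul_assoc, h1, mul_assoc]
  · push Not at hthird
    have hp2 : p = 2 := by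
      by_contra hp2
      have hA₃ : A₂.map (MulAut.conj k).toMonoidHom ∈ minSet A := map_conj_mem_minSet hA₂ k
      have h1 : A₂.map (MulAut.conj k).toMonoidHom = A₁ := by
        by_contra hne
        have h2 := hthird _ hA₃ hne
        exact hk (Subgroup.map_injective (MulAut.conj k).injective h2)
      have hkk : k * k ∈ normalizer (A₁ : Set G) := by
        refine mem_normalizer_fintype (S := (A₁ : Set G)) fun x hx => ?_
        have h2 : k * k * x * (k * k)⁻¹ ∈ A₂.map (MulAut.conj k).toMonoidHom := by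
          refine ⟨k * x * k⁻¹, ⟨x, hx, by simp⟩, ?_⟩
          simp only [MulEquiv.toMonoidHom_eq_coe, MonoidHom.coe_coe, MulAut.conj_apply]
          group
        rwa [h1] at h2
      have hodd : Odd (orderOf k) := by
        obtain ⟨m, hm⟩ := h.pg ⟨k, hkH⟩
        have h2 : k ^ p ^ m = 1 := congrArg Subtype.val hm
        obtain ⟨j, -, hj⟩ := (Nat.dvd_prime_pow (Fact.out : p.Prime)).1 (orderOf_dvd_of_pow_eq_one h2)
        rw [hj]
        exact ((Fact.out : p.Prime).odd_of_ne_two hp2).pow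
      obtain ⟨j, hj⟩ := hodd
      have hkN : k ∈ normalizer (A₁ : Set G) := by
        have h2 : k = (k * k) ^ (j + 1) := by
          rw [← pow_two, ← pow_mul]
          have h3 : 2 * (j + 1) = orderOf k + 1 := by omega
          rw [h3, pow_add, pow_orderOf_eq_one, one_mul, pow_one]
        rw [h2]
        exact pow_mem hkk _
      refine hk ?_
      ext x
      constructor
      · rintro ⟨y, hy, rfl⟩
        exact mem_pow_conj hkN hy
      · intro hx
        refine ⟨k⁻¹ * x * k, ?_, ?_⟩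
        · have := mem_pow_conj (inv_mem hkN) hx
          simpa using this
        · simp [mul_assoc]
    subst hp2
    by_cases hHA : H ⊓ A = ⊥
    · refine hfin fun a ha n hn => ?_
      obtain ⟨u, hu, huT, hun, huA⟩ := hkey a ha n hn
      rw [← hu]
      obtain ⟨t, -, ht⟩ := h.exists_conj_mem a u huT hun
      have h1 : t * u * t⁻¹ ∈ H ⊓ A := mem_inf.2 ⟨ht, Normal.conj_mem inferInstance u huA t⟩
      rw [hHA, mem_bot] at h1
      have h2 : u = t⁻¹ * (t * u * t⁻¹) * t := by group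
      rw [h2, h1]; group
    · -- an involution of `H ∩ A`
      have hpHA : IsPGroup 2 ↥(H ⊓ A : Subgroup G) := h.pg.to_le inf_le_left
      have hdvd : 2 ∣ Nat.card ↥(H ⊓ A : Subgroup G) := by
        obtain ⟨n, hn⟩ := hpHA.exists_card_eq
        rw [hn]
        refine dvd_pow_self 2 ?_
        rintro rfl
        rw [pow_zero] at hn
        exact hHA (Subgroup.card_eq_one.1 hn)
      obtain ⟨⟨z, hz⟩, hzo⟩ := exists_prime_orderOf_dvd_card' 2 hdvd
      rw [← Subgroup.orderOf_coe] at hzo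
      change orderOf z = 2 at hzo
      obtain ⟨hzH, hzA⟩ := mem_inf.1 hz
      have hz1 : z ≠ 1 := by
        rintro rfl
        rw [orderOf_one] at hzo
        omega
      have hzz : z * z = 1 := by rw [← pow_two, ← hzo, pow_orderOf_eq_one]
      have hA12 : A ≤ A₁ ⊔ A₂ := by
        conv_lhs => rw [← hsup]
        refine sSup_le fun T hT => ?_
        by_cases hT1 : T = A₁
        · rw [hT1]; exact le_sup_left
        · rw [hthird T hT hT1]; exact le_sup_right
      obtain ⟨z₁, hz₁, z₂, hz₂, hz12⟩ := mem_sup_norm ((hle _ hA₁).trans (hK _ hA₂)) (hA12 hzA)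
      have hc12 : ∀ x ∈ A₁, ∀ y ∈ A₂, x * y = y * x := hcomm A₁ hA₁ A₂ hA₂ (Ne.symm hk)
      have hz₁z₁ : z₁ * z₁ = 1 := by
        refine hdisj A₁ hA₁ A₂ hA₂ (Ne.symm hk) _ (mul_mem hz₁ hz₁) ?_
        have h1 : (z₁ * z₁) * (z₂ * z₂) = 1 := by
          rw [← hzz, ← hz12]
          calc z₁ * z₁ * (z₂ * z₂) = z₁ * (z₁ * z₂) * z₂ := by group
            _ = z₁ * (z₂ * z₁) * z₂ := by rw [hc12 z₁ hz₁ z₂ hz₂]
            _ = z₁ * z₂ * (z₁ * z₂) := by group
        rw [mul_eq_one_iff_eq_inv.1 h1]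
        exact inv_mem (mul_mem hz₂ hz₂)
      have hz₁1 : z₁ ≠ 1 := by
        intro h1
        refine hz1 (h.eq_one_of_centralizes A hcA htop hsup htr hA₁ hzH fun b hb => ?_)
        rw [← hz12, h1, one_mul]
        exact (hc12 b hb z₂ hz₂).symm
      have hodd : ∀ b ∈ A₁, Odd (orderOf (z₁ * b * z₁⁻¹ * b⁻¹)) := by
        intro b hb
        by_contra hno
        rw [Nat.not_odd_iff_even] at hno
        have hw : z * b * z⁻¹ * b⁻¹ = z₁ * b * z₁⁻¹ * b⁻¹ := by
          rw [← hz12]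
          have h1 := hc12 b hb z₂ hz₂
          calc z₁ * z₂ * b * (z₁ * z₂)⁻¹ * b⁻¹ = z₁ * (z₂ * b) * z₂⁻¹ * z₁⁻¹ * b⁻¹ := by group
            _ = z₁ * (b * z₂) * z₂⁻¹ * z₁⁻¹ * b⁻¹ := by rw [h1]
            _ = z₁ * b * z₁⁻¹ * b⁻¹ := by group
        set w := z₁ * b * z₁⁻¹ * b⁻¹ with hwd
        have hwA : w ∈ A₁ := mul_mem (mul_mem (mul_mem hz₁ hb) (inv_mem hz₁)) (inv_mem hb)
        have hwT : w ∈ H ⊔ H.map (MulAut.conj b).toMonoidHom := by
          rw [← hw]
          have h1 : z * b * z⁻¹ * b⁻¹ = z * (b * z⁻¹ * b⁻¹) := by group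
          rw [h1]
          exact mul_mem (mem_sup_left hzH) (mem_sup_right ⟨z⁻¹, inv_mem hzH, by simp⟩)
        have hw0 : orderOf w ≠ 0 := (orderOf_pos w).ne'
        have h2 : orderOf (w ^ (orderOf w / 2)) = 2 := orderOf_pow_orderOf_div hw0 hno.two_dvd
        have h3 : w ^ (orderOf w / 2) = 1 := by
          refine h.eq_one_of_centralizes' (k := 1) A hcA htop hsup htr hA₂ b (pow_mem hwT _) ?_ ?_
          · have h4 := pow_orderOf_eq_one (w ^ (orderOf w / 2))
            rw [h2] at h4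
            rw [pow_one]; exact h4
          · intro y hy
            exact hc12 _ (pow_mem hwA _) y hy
        rw [h3, orderOf_one] at h2
        omega
      -- `Z*`
      have hzo1 : orderOf (⟨z₁, hz₁⟩ : A₁) = 2 := by
        refine orderOf_eq_prime ?_ ?_
        · rw [pow_two]; exact Subtype.ext hz₁z₁
        · intro h1; exact hz₁1 (congrArg Subtype.val h1)
      have hzp : IsPGroup 2 (zpowers (⟨z₁, hz₁⟩ : A₁)) := by
        rw [IsPGroup.iff_card]
        exact ⟨1, by rw [Nat.card_zpowers, hzo1, pow_one]⟩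
      obtain ⟨P, hP⟩ := hzp.exists_le_sylow
      have hzP : (⟨z₁, hz₁⟩ : A₁) ∈ P := hP (mem_zpowers _)
      have hiso := (S0216.result P (⟨z₁, hz₁⟩ : A₁) hzo1 hzP).2 (fun g => by
        have h1 := hodd g g.2
        rw [← Subgroup.orderOf_coe]
        exact h1)
      obtain ⟨N, hN, hNodd, hNc⟩ := S0215.result P (⟨z₁, hz₁⟩ : A₁) hzo1 hzP hiso
      haveI := hsimp A₁ hA₁
      rcases hN.eq_bot_or_eq_top with hN1 | hN1
      · refine hz₁1 (hcent A₁ hA₁ z₁ hz₁ fun t ht => ?_)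
        have h1 := hNc ⟨t, ht⟩
        rw [hN1, mem_bot] at h1
        have h2 : z₁ * t * z₁⁻¹ * t⁻¹ = 1 := congrArg Subtype.val h1
        have h3 : z₁ * t * z₁⁻¹ = t := mul_inv_eq_one.1 h2
        change z₁ * t = t * z₁
        calc z₁ * t = (z₁ * t * z₁⁻¹) * z₁ := by group
          _ = t * z₁ := by rw [h3]
      · rw [hN1, Subgroup.card_top] at hNodd
        have h1 : orderOf (⟨z₁, hz₁⟩ : A₁) ∣ Nat.card A₁ := orderOf_dvd_natCard _
        rw [hzo1] at h1
        exact (Nat.not_even_iff_odd.2 hNodd) (even_iff_two_dvd.2 h1)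

/-- A counterexample to the factorization of minimal order. -/
theorem step [Finite G] [Fact p.Prime] (h : EC p H) (ih : IH p G) (hF : ¬ Fac p H) :
    pPrimeCore p G = ⊥ ∧ pCore p G = ⊥ ∧ ∃ A : Subgroup G, A.Normal ∧ IsSimpleGroup A ∧
      (¬ ∀ x ∈ A, ∀ y ∈ A, Commute x y) ∧ centralizer (A : Set G) = ⊥ ∧ H ⊔ A = ⊤ := by
  have hc' : pPrimeCore p G = ⊥ := by
    by_contra hne
    exact hF (h.fac_of_pPrimeCore_ne_bot ih hne)
  have hc : pCore p G = ⊥ := by
    by_contra hne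
    exact hF (h.fac_of_pCore_ne_bot ih hc' hne)
  have hne : H ≠ ⊥ := by
    rintro rfl
    exact hF (fac_of_normal inferInstance)
  obtain ⟨A, hA, hA1, hmin, hna, htop⟩ := h.exists_minimal ih hc' hc hne
  haveI := hA
  have hAm := h.mem_minSet_self hc' hc A hmin hna htop
  exact ⟨hc', hc, A, hA, (nonabelian_structure A hmin hna).2.2.2.1 A hAm, hna,
    h.centralizer_eq_bot hc A hmin hna htop, htop⟩

end EC

end Cfsg.Agent.H266
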